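import Cfsg.Agent.H737.EPO.Radical
import Cfsg.Agent.H515.EPO.RkTwo
import Cfsg.Agent.H284.EPO.TThree
import Cfsg.Agent.H470.EPO.OwnPan

/-!
# S5745 / S3499, OWN characteristic, `q = 2`: the state `Q2` from `EPS` (helper737)

`q2_pan` : `EPS H N e`, `T` with `HasPan 2 M qf T`, `HasFilt 2 T`, at least three nodes or two different `qf i`: then
`Q2Data`: `k = 1`, a root group datum of type `M` with `|X_j| = qf j`, and `Q2` for its parabolic system and a node `i`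
with `qf i = 2` and the property (C) of the residues (`TThree.Res`).
-/

set_option autoImplicit false
set_option linter.unusedSectionVars false

namespace Cfsg.Agent.H737.EPO

open CoxeterSystem Cfsg.Agent.ChevalleyStructure.CoxeterGeom Cfsg.Agent.Tits.Roots Cfsg.Agent.Tits.Core
  Cfsg.Agent.Tits.RootComb Cfsg.Agent.Tits.Exchange Cfsg.Agent.Nodes.Reps Cfsg.Agent.Nodes.BNOf
  Cfsg.Agent.Nodes.StabComb Cfsg.Agent.Nodes.Bruhat Cfsg.Agent.Nodes.OppDec Cfsg.Agent.Nodes.LeviDec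
  Cfsg.Agent.Nodes.Coroot Cfsg.Agent.KFacts.RgdPar Cfsg.Agent.KFacts.RgdSL Cfsg.Agent.KFacts.RgdVJ
  Cfsg.Agent.KFacts.RgdCharP Cfsg.Agent.H470.EPK Cfsg.Agent.H470.EPO Cfsg.Agent.H209.EPX
  Cfsg.Agent.KFacts.RgdFilt Cfsg.Agent.H284.EPT Cfsg.Agent.H50.Her Cfsg.Agent.H419.EP Cfsg.Agent.H284.Pan
  Cfsg.Agent.H284.TThree

/-- the data after `own_two` -/
def Q2Data {G : Type*} [Group G] [Finite G] (H N : Subgroup G) (T : Type) [Group T] [Finite T] {l : ℕ}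
    (M : CoxeterMatrix (Fin l)) (qf : Fin l → ℕ) : Prop :=
  ∃ (A : Fin l → Fin l → ℤ) (hC : IsCartan M A) (Tt : Subgroup T) (n : Fin l → T) (X : (Fin l → ℤ) → Subgroup T)
    (_ : Finite M.Group) (_ : Fact (Nat.Prime 2)) (R : RGD M.toCoxeterSystem hC 2 Tt n X)
    (hBT : BT M.toCoxeterSystem hC 2 Tt X) (hG : GG M.toCoxeterSystem hC Tt X = ⊤)
    (hX : RGD.Sup X {x | IsRoot M.toCoxeterSystem hC x} = ⊤) (hconn : Conn M) (e' : N ≃* (Fin 1 → T))
    (R₀ : Subgroup G) (i : Fin l) (t : G),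
    Q2 H R₀ e' (ofRGD R hBT hG hX hconn) i t ∧ (∀ j, Nat.card (X (sr j)) = qf j) ∧ qf i = 2 ∧
      Res M.toCoxeterSystem hC Tt X i

variable {G : Type*} [Group G] [Finite G] {H N : Subgroup G} {T : Type} [Group T] [Finite T] {k : ℕ}
  {e : N ≃* (Fin k → T)} {l : ℕ} {M : CoxeterMatrix (Fin l)} {qf : Fin l → ℕ}

/-- **`Q2` from `EPS`**, with the `G`-side as hypothesis -/
theorem q2_dq (hl : 2 ≤ l) (h : EPS H N e) (hP : HasPan 2 M qf T) (hF : HasFilt 2 T)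
    (h3 : 3 ≤ l ∨ ∃ i j, qf i ≠ qf j)
    (hDQ : ∀ (S : PSys T 2 (Fin l)) (e' : N ≃* (Fin k → T)) (J : Fin k → Set (Fin l)), VV e' S J ≠ ⊥ →
      DQ H e' S J) : k = 1 ∧ Q2Data H N T M qf := by
  have := h.simple
  have h2 : Fact (Nat.Prime 2) := ⟨Nat.prime_two⟩
  obtain ⟨A, hC, Tt, n, X, hW, R, hX, -, -, hq⟩ := hP
  have : Nontrivial (Fin l) := Fin.nontrivial_iff_two_le.2 hl
  have hG := GG_eq_top (T := Tt) hX
  have hBT := bt_of_hasFilt R hG hF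
  have hconn := KFacts.RgdLieCharP.conn_of_simple R hX (KFacts.RgdLieCharP.center_eq_bot h.nab)
  have hrk : Rk2 H N k (ofRGD R hBT hG hX hconn) := by
    rcases h3 with h3 | ⟨i, j, hij⟩
    · exact H515.EPO.rk2_of_three R hBT hG hX hconn h.pos h.nrm (by rwa [Fintype.card_fin])
    · exact H515.EPO.rk2_of_ne R hBT hG hX hconn h.pos h.nrm (i := i) (j := j) (by rwa [hq, hq])
  obtain ⟨P, -, hP⟩ := exists_sylIn (p := 2) (H := H) (K := ⊥) bot_le IsPGroup.of_bot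
  obtain ⟨e', hPN⟩ := exists_std (ofRGD R hBT hG hX hconn) e h.nrm h.le hP
  obtain ⟨J₀, hJ₀, ⟨i₀, h0⟩, ⟨i₁, h1⟩⟩ := hrk e'
  obtain ⟨-, hk, i, t, c1, c2, c3, c4, c5, c6, c7⟩ := own_two e' h.nab (rk_ofRGD R hBT hG hX hconn) h.ep h.toMinN hP hPN
    (fun J hJ => hDQ _ e' J hJ) hJ₀ h0 h1
  subst hk
  have q : Q2 H P e' (ofRGD R hBT hG hX hconn) i t :=
    ⟨h.ep, h.toMinN, hP, hPN, fun J hJ => hDQ _ e' J hJ, c1, c2, c3, c4, c5, c6, c7⟩
  refine ⟨rfl, A, hC, Tt, n, X, hW, h2, R, hBT, hG, hX, hconn, e', P, i, t, q, hq, ?_, fun K hK => ?_⟩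
  · rw [← hq i, ← relIndex_ofRGD R hBT hG hX hconn i]
    exact c2
  · exact q.res_pow' h.nab hK

/-- **`Q2` from `EPS`** -/
theorem q2_pan [IsSimpleGroup G] (hl : 2 ≤ l) (h : EPS H N e) (hGF : HasFilt 2 G) (hP : HasPan 2 M qf T)
    (hF : HasFilt 2 T) (h3 : 3 ≤ l ∨ ∃ i j, qf i ≠ qf j) : k = 1 ∧ Q2Data H N T M qf := by
  have : Fact (Nat.Prime 2) := ⟨Nat.prime_two⟩
  have hnab : ∃ a b : G, a * b ≠ b * a := by
    obtain ⟨a, b, hab⟩ := h.nab
    refine ⟨(e.symm (fun _ => a) : N), (e.symm (fun _ => b) : N), fun h3 => hab ?_⟩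
    have h4 : e.symm (fun _ => a) * e.symm (fun _ => b) = e.symm (fun _ => b) * e.symm (fun _ => a) := Subtype.ext h3
    rw [← map_mul, ← map_mul] at h4
    exact congrFun (e.symm.injective h4) ⟨0, h.pos⟩
  exact q2_dq hl h hP hF h3 fun S e' J hJ => dq_of h hGF hnab (j := MonoidHom.id G) Function.injective_id
    (by rw [MonoidHom.range_eq_top.2 Function.surjective_id]; infer_instance)
    (by rw [MonoidHom.range_eq_top.2 Function.surjective_id]; exact le_top) S e' J hJ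

end Cfsg.Agent.H737.EPO
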