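import Cfsg.Agent.H737.EPO.Q2Rgd
import Cfsg.Agent.H218.OWN.Pack
import Cfsg.Agent.S2122
import Cfsg.Agent.KFacts.RgdFiltChev

/-!
# S5745, OWN characteristic, `q = 2`: the socle `F₄(2)` (helper737)

`dead_f4` : no stabiliser with socle `F₄(2) ^ k`, from (D3): `2 ^ 5 ∣ |T : K|` for `K < T`, `O_2(K) = 1`.
-/

set_option autoImplicit false
set_option linter.unusedSectionVars false

namespace Cfsg.Agent.H737.EPO.F4

open CoxeterSystem Cfsg.Agent.ChevalleyStructure.CoxeterGeom Cfsg.Agent.Tits.Roots Cfsg.Agent.Tits.Core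
  Cfsg.Agent.Nodes.BNOf Cfsg.Agent.Nodes.StabComb Cfsg.Agent.Nodes.Bruhat Cfsg.Agent.Nodes.LeviDec
  Cfsg.Agent.KFacts.RgdCharP Cfsg.Agent.H209.EPX Cfsg.Agent.KFacts.RgdFilt Cfsg.Agent.H284.TThree
  Cfsg.Agent.H742.EX.Q2 Cfsg.Agent.H35.ExcIdx
open Cfsg.Lie Cfsg.Agent.ChevalleyStructure Cfsg.Agent.ChevalleyStructure.Elts
  Cfsg.Agent.ChevalleyStructure.RootVec Cfsg.Agent.ChevalleyStructure.RootVecTab
  Cfsg.Agent.ChevalleyStructure.NPerm Cfsg.Agent.ChevalleyStructure.CoxeterGeomTypes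
open Cfsg.Agent.Nodes Cfsg.Agent.Nodes.RGDChev

variable {F : Type} [Field F] [Fintype F] (hF : Fintype.card F = 2)

include hF

theorem charP : CharP F 2 := by
  have : Fact (Nat.Prime 2) := ⟨Nat.prime_two⟩
  exact charP_of_card_eq_prime_pow (f := 1) (by rw [hF, pow_one])

theorem card_T : Nat.card ↥(chevF4.group F) = 3311126603366400 := by
  have h1 := Cfsg.Agent.S1062.result hF
  rw [h1]
  norm_num

/-- the index of the two end parabolic subgroups -/
theorem index_eq {i : Fin 4} (hi : i = 0 ∨ i = 3) :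
    (PJ CoxeterMatrix.F₄.toCoxeterSystem hpF4.isCartan (TT chevF4 F) (XX chevF4 4 F) {i}ᶜ).index = 69615 := by
  have := charP hF
  have : Fact (Nat.Prime 2) := ⟨Nat.prime_two⟩
  have hfin := finite_W hpF4 CoxeterMatrix.F₄.toCoxeterSystem
  have R := rgd (K := F) hpF4 CoxeterMatrix.F₄.toCoxeterSystem 2
  have hc : ∀ j, Nat.card (XX chevF4 4 F (sr j)) = 2 := fun j => by
    rw [card_XX hpF4 F CoxeterMatrix.F₄.toCoxeterSystem (isRoot_sr _ _ j), Nat.card_eq_fintype_card, hF]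
  have h := hpF4.isCartan
  have hN : Nat.card ↥(PJ CoxeterMatrix.F₄.toCoxeterSystem hpF4.isCartan (TT chevF4 F) (XX chevF4 4 F) {i}ᶜ) =
      2835 * Nat.card ↥(RGD.B CoxeterMatrix.F₄.toCoxeterSystem hpF4.isCartan (TT chevF4 F) (XX chevF4 4 F)) := by
    rcases hi with rfl | rfl
    · have hJ : ({0}ᶜ : Set (Fin 4)) = {3, 2, 1} := by
        ext j; revert j; decide
      rw [hJ, card_B3 R (a := 3) (b := 2) (c := 1) (cart3 h rfl) (cart4 h rfl) (cart2 h rfl) (hc _) (hc _) (hc _)]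
      norm_num
    · have hJ : ({3}ᶜ : Set (Fin 4)) = {0, 1, 2} := by
        ext j; revert j; decide
      rw [hJ, card_B3 R (a := 0) (b := 1) (c := 2) (cart3 h rfl) (cart4 h rfl) (cart2 h rfl) (hc _) (hc _) (hc _)]
      norm_num
  have h1 := index_split hpF4 F Nat.prime_two one_ne_zero (by rw [hF, pow_one]) CoxeterMatrix.F₄.toCoxeterSystem
    (J := {i}ᶜ) (N := 2835) (d := 1) (P := 197358525) (by norm_num)
    (by rw [← hF, pow_one]; exact Cfsg.Agent.S1035.result rfl (chevF4, 1) (by simp))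
    ⟨24, by rw [one_mul, card_T hF]; norm_num⟩ (by norm_num) hN
  omega

theorem aut_dvd : Nat.card (MulAut ↥(chevF4.group F)) ∣ 2 ^ 25 * 197358525 := by
  have := charP hF
  have : Fact (Nat.Prime 2) := ⟨Nat.prime_two⟩
  have : Finite ↥(chevF4.group F) := Nat.finite_of_card_ne_zero (by rw [card_T hF]; norm_num)
  have h1 := mulAut_dvd ↥(chevF4.group F)
  rw [Cfsg.Agent.S2122.result 2 1 (by rw [hF, pow_one]), card_T hF] at h1
  norm_num at h1
  norm_num
  exact h1

/-- the 2-part of the index -/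
theorem index_dvd {G : Type*} [Group G] [Finite G] {Fm : Fam} {f : ℕ} (hok : okF Fm f = true) (hord : IsOrd Fm f G)
    {H N : Subgroup G} {e : N ≃* (Fin 1 → ↥(chevF4.group F))} (h : EPS H N e) : 2 ^ 5 ∣ H.index := by
  have hf : 1 ≤ f := by
    cases Fm <;> simp [okF] at hok <;> omega
  by_cases h30 : 30 ≤ f * NF Fm
  · exact two_pow_dvd (pow_dvd_card hf hord) ((card_H_dvd h).trans (aut_dvd hF)) (by decide) h30
  · exfalso
    have h1 := card_T_dvd h
    rw [card_T hF] at h1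
    have h2 := card_T_ne h
    rw [card_T hF] at h2
    rw [← gF_eq hord] at h1 h2
    have hf4 : f ≤ 4 := by
      cases Fm <;> simp only [NF] at h30 <;> omega
    cases Fm <;> simp only [NF] at h30 <;> interval_cases f <;>
      first
        | omega
        | exact absurd hok (by decide)
        | exact h2 (by decide +kernel)
        | exact absurd h1 (by decide +kernel)

/-- **the socle `F₄(2) ^ k`** -/
theorem dead_f4 {G : Type} [Group G] [Finite G] [IsSimpleGroup G] (hGF : HasFilt 2 G) {Fm : Fam} {f : ℕ}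
    (hok : okF Fm f = true) (hord : IsOrd Fm f G) {H N : Subgroup G} {T : Type} [Group T] {k : ℕ}
    {e : N ≃* (Fin k → T)} (h : EPS H N e) (g : T ≃* ↥(chevF4.group F))
    (hD : ∀ K : Subgroup ↥(chevF4.group F), K ≠ ⊤ →
      (∀ D : Subgroup ↥(chevF4.group F), D ≤ K → IsPGroup 2 D → (∀ g ∈ K, ∀ d ∈ D, g * d * g⁻¹ ∈ D) → D = ⊥) →
      2 ^ 5 ∣ K.index) : False := by
  have := charP hF
  have : Fact (Nat.Prime 2) := ⟨Nat.prime_two⟩
  have : Finite ↥(chevF4.group F) := Nat.finite_of_card_ne_zero (by rw [card_T hF]; norm_num)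
  have hfin := finite_W hpF4 CoxeterMatrix.F₄.toCoxeterSystem
  have R := rgd (K := F) hpF4 CoxeterMatrix.F₄.toCoxeterSystem 2
  have hc : ∀ j, Nat.card (XX chevF4 4 F (sr j)) = 2 := fun j => by
    rw [card_XX hpF4 F CoxeterMatrix.F₄.toCoxeterSystem (isRoot_sr _ _ j), Nat.card_eq_fintype_card, hF]
  have h' := eps_congr h g
  obtain ⟨hk, hBT, hG, hconn, e', R₀, i, t, q, hi, hres⟩ := q2_g1 (l := 4) (by norm_num) h' hGF R
    (KFacts.RgdFiltChev.hasFilt_F4 F 2) (G1_eq_top hpF4 _) (Or.inl (by norm_num))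
  subst hk
  have := h'.simple
  have h1 := q.dvd' h'.nab hBT (index_dvd hF hok hord h') hD
  have h2 : (PJ CoxeterMatrix.F₄.toCoxeterSystem hpF4.isCartan (TT chevF4 F) (XX chevF4 4 F) {i}ᶜ).index = 69615 :=
    index_eq hF (surv_F4 R hc hres)
  have h3 : 2 ^ 5 ∣ 1 + (PJ CoxeterMatrix.F₄.toCoxeterSystem hpF4.isCartan (TT chevF4 F) (XX chevF4 4 F) {i}ᶜ).index := h1
  rw [h2] at h3
  revert h3
  norm_num

end Cfsg.Agent.H737.EPO.F4
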