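import Cfsg.Agent.H737.EPO.Q2Of
import Cfsg.Agent.H742.EX.Q2Grp

/-!
# S5745 / S3499, OWN characteristic, `q = 2`: `Q2` for a given root group datum (helper737)

* `q2_rgd` : as `q2_pan`, for a given root group datum;
* `EPS.congr` : change of `T`;
* `card_H_dvd`, `two_pow_dvd` : the 2-part of the index.
-/

set_option autoImplicit false
set_option linter.unusedSectionVars false

namespace Cfsg.Agent.H737.EPO

open CoxeterSystem Cfsg.Agent.ChevalleyStructure.CoxeterGeom Cfsg.Agent.Tits.Roots Cfsg.Agent.Tits.Core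
  Cfsg.Agent.Tits.RootComb Cfsg.Agent.Tits.Exchange Cfsg.Agent.Nodes.Reps Cfsg.Agent.Nodes.BNOf
  Cfsg.Agent.Nodes.StabComb Cfsg.Agent.Nodes.Bruhat Cfsg.Agent.Nodes.OppDec Cfsg.Agent.Nodes.LeviDec
  Cfsg.Agent.Nodes.Coroot Cfsg.Agent.KFacts.RgdPar Cfsg.Agent.KFacts.RgdSL Cfsg.Agent.KFacts.RgdVJ
  Cfsg.Agent.KFacts.RgdCharP Cfsg.Agent.H470.EPK Cfsg.Agent.H470.EPO Cfsg.Agent.H209.EPX
  Cfsg.Agent.KFacts.RgdFilt Cfsg.Agent.H284.TThree Cfsg.Agent.H742.EX.Q2

section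

variable {G : Type*} [Group G] [Finite G] {H N : Subgroup G} {T : Type} [Group T] {k : ℕ}
  {e : N ≃* (Fin k → T)}

/-- change of `T` -/
theorem eps_congr {S : Type} [Group S] (h : EPS H N e) (g : T ≃* S) :
    EPS H N (e.trans (MulEquiv.piCongrRight fun _ : Fin k => g)) where
  toMinN := h.toMinN
  ep := h.ep
  pos := h.pos
  simple := by
    have := h.simple
    exact g.symm.isSimpleGroup
  nab := by
    obtain ⟨a, b, hab⟩ := h.nab
    exact ⟨g a, g b, fun h1 => hab (g.injective (by rw [map_mul, map_mul, h1]))⟩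
  cent := h.cent
  least := h.least

theorem finite_T (h : EPS H N e) : Finite T := by
  have : Nonempty (Fin k) := ⟨⟨0, h.pos⟩⟩
  have h1 : Finite (Fin k → T) := Finite.of_equiv N e.toEquiv
  exact Finite.of_surjective (fun f : Fin k → T => f ⟨0, h.pos⟩) fun t => ⟨fun _ => t, rfl⟩

theorem card_H_dvd {e : N ≃* (Fin 1 → T)} (h : EPS H N e) : Nat.card H ∣ Nat.card (MulAut T) := by
  let e' : N ≃* T := e.trans (MulEquiv.funUnique (Fin 1) T)
  have hfT : Finite T := Finite.of_equiv N e'.toEquiv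
  have hfA : Finite (MulAut T) := inferInstance
  let f : H →* MulAut T := (MulAut.congr e').toMonoidHom.comp (act h.toNIn)
  have hf : Function.Injective f := by
    have h1 : Function.Injective (act h.toNIn) := by
      rw [injective_iff_map_eq_one]
      intro g hg
      have h2 : (g : G) ∈ Subgroup.centralizer (N : Set G) := by
        rw [Subgroup.mem_centralizer_iff]
        intro n hn
        have h3 := congrArg (fun φ : MulAut N => ((φ ⟨n, hn⟩ : N) : G)) hg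
        have h4 : (g : G) * n * (g : G)⁻¹ = n := h3
        rw [mul_inv_eq_iff_eq_mul] at h4
        exact h4.symm
      rw [h.cent, Subgroup.mem_bot] at h2
      exact Subtype.ext h2
    exact (MulAut.congr e').injective.comp h1
  exact Subgroup.card_dvd_of_injective f hf

theorem mulAut_dvd (S : Type) [Group S] [Finite S] : Nat.card (MulAut S) ∣ Nat.card (Cfsg.Out S) * Nat.card S := by
  rw [Subgroup.card_eq_card_quotient_mul_card_subgroup (Cfsg.Inn S)]
  refine mul_dvd_mul (dvd_refl _) ?_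
  exact Subgroup.card_range_dvd _

/-- `N` is proper -/
theorem card_T_ne {e : N ≃* (Fin 1 → T)} (h : EPS H N e) : Nat.card T ≠ Nat.card G := by
  intro h1
  have h2 : Nat.card N = Nat.card G := by
    rw [Nat.card_congr (e.trans (MulEquiv.funUnique (Fin 1) T)).toEquiv, h1]
  have h3 : N = ⊤ := Subgroup.eq_top_of_card_eq _ h2
  apply h.ep.max.1
  rw [eq_top_iff, ← h3]
  exact h.le

end

/-! ### the 2-part of the index -/

section two

theorem odd_sub {f i : ℕ} (hf : 1 ≤ f) (hi : 1 ≤ i) : Odd ((2 ^ f) ^ i - 1) := by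
  have h1 : Even ((2 ^ f) ^ i) := (Nat.even_pow' (by omega)).2 ((Nat.even_pow' (by omega)).2 even_two)
  exact Nat.Even.sub_odd (Nat.one_le_pow _ _ (by positivity)) h1 odd_one

theorem odd_add {f i : ℕ} (hf : 1 ≤ f) (hi : 1 ≤ i) : Odd ((2 ^ f) ^ i + 1) := by
  have h1 : Even ((2 ^ f) ^ i) := (Nat.even_pow' (by omega)).2 ((Nat.even_pow' (by omega)).2 even_two)
  exact h1.add_odd odd_one

theorem odd_hF (F : Fam) {f : ℕ} (hf : 1 ≤ f) : Odd (hF F (2 ^ f)) := by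
  have a := fun i (hi : 1 ≤ i) => odd_sub (f := f) (i := i) hf hi
  have b := fun i (hi : 1 ≤ i) => odd_add (f := f) (i := i) hf hi
  have c : Odd (2 ^ f - 1) := by
    have := a 1 le_rfl
    rwa [pow_one] at this
  have d : Odd ((2 ^ f) ^ 8 + (2 ^ f) ^ 4 + 1) := by
    have h1 : Even ((2 ^ f) ^ 8) := (Nat.even_pow' (by omega)).2 ((Nat.even_pow' (by omega)).2 even_two)
    have h2 : Even ((2 ^ f) ^ 4) := (Nat.even_pow' (by omega)).2 ((Nat.even_pow' (by omega)).2 even_two)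
    exact (h1.add h2).add_odd odd_one
  cases F <;> simp only [hF, Nat.odd_mul]
  · exact ⟨⟨⟨⟨⟨⟨⟨a _ (by omega), a _ (by omega)⟩, a _ (by omega)⟩, a _ (by omega)⟩, a _ (by omega)⟩, a _ (by omega)⟩,
      a _ (by omega)⟩, a _ (by omega)⟩
  · exact ⟨⟨⟨⟨⟨⟨a _ (by omega), a _ (by omega)⟩, a _ (by omega)⟩, a _ (by omega)⟩, a _ (by omega)⟩, a _ (by omega)⟩,
      a _ (by omega)⟩
  · exact ⟨⟨⟨⟨⟨a _ (by omega), a _ (by omega)⟩, a _ (by omega)⟩, a _ (by omega)⟩, a _ (by omega)⟩, a _ (by omega)⟩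
  · exact ⟨⟨⟨⟨⟨a _ (by omega), b _ (by omega)⟩, a _ (by omega)⟩, a _ (by omega)⟩, b _ (by omega)⟩, a _ (by omega)⟩
  · exact ⟨⟨⟨a _ (by omega), a _ (by omega)⟩, a _ (by omega)⟩, a _ (by omega)⟩
  · exact ⟨a _ (by omega), a _ (by omega)⟩
  · exact ⟨⟨a _ (by omega), a _ (by omega)⟩, d⟩
  · exact ⟨⟨⟨c, b _ (by omega)⟩, a _ (by omega)⟩, b _ (by omega)⟩

theorem odd_zF (F : Fam) {f : ℕ} (hf : 1 ≤ f) : Odd (zF F (2 ^ f)) := by
  have a : Odd (2 ^ f - 1) := by
    have := odd_sub (f := f) (i := 1) hf le_rfl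
    rwa [pow_one] at this
  have b : Odd (2 ^ f + 1) := by
    have := odd_add (f := f) (i := 1) hf le_rfl
    rwa [pow_one] at this
  cases F <;> simp only [zF]
  · exact odd_one
  · exact Odd.of_dvd_nat a (Nat.gcd_dvd_right _ _)
  · exact Odd.of_dvd_nat a (Nat.gcd_dvd_right _ _)
  · exact Odd.of_dvd_nat b (Nat.gcd_dvd_right _ _)
  · exact odd_one
  · exact odd_one
  · exact odd_one
  · exact odd_one

/-- the 2-part of `|G|` -/
theorem pow_dvd_card {G : Type*} [Group G] {F : Fam} {f : ℕ} (hf : 1 ≤ f) (hG : IsOrd F f G) :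
    2 ^ (f * NF F) ∣ Nat.card G := by
  have h1 : 2 ^ (f * NF F) ∣ zF F (2 ^ f) * Nat.card G := by
    rw [hG, pow_mul]
    exact dvd_mul_right _ _
  have h2 : Nat.Coprime (2 ^ (f * NF F)) (zF F (2 ^ f)) :=
    Nat.Coprime.pow_left _ ((Nat.coprime_two_left).2 (odd_zF F hf))
  exact h2.dvd_of_dvd_mul_left h1

/-- the 2-part of the index -/
theorem two_pow_dvd {G : Type*} [Group G] {H : Subgroup G} {A B s m : ℕ} (hA : 2 ^ A ∣ Nat.card G)
    (hH : Nat.card H ∣ 2 ^ B * m) (hm : Odd m) (hs : B + s ≤ A) : 2 ^ s ∣ H.index := by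
  rw [← H.card_mul_index] at hA
  have h1 : 2 ^ (B + s) ∣ 2 ^ B * (m * H.index) := by
    refine (pow_dvd_pow 2 hs).trans (hA.trans ?_)
    rw [← mul_assoc]
    exact Nat.mul_dvd_mul_right hH _
  rw [pow_add] at h1
  have h2 : 2 ^ s ∣ m * H.index := Nat.dvd_of_mul_dvd_mul_left (by positivity) h1
  exact (Nat.Coprime.pow_left _ ((Nat.coprime_two_left).2 hm)).dvd_of_dvd_mul_left h2

end two

/-! ### `Q2` for a given root group datum -/

variable {G : Type*} [Group G] [Finite G] {H N : Subgroup G} {T : Type} [Group T] [Finite T] {k : ℕ}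
  {e : N ≃* (Fin k → T)} {l : ℕ} {M : CoxeterMatrix (Fin l)} {qf : Fin l → ℕ}
  {A : Fin l → Fin l → ℤ} {hC : IsCartan M A} {Tt : Subgroup T} {n : Fin l → T} {X : (Fin l → ℤ) → Subgroup T}

/-- **`Q2` from `EPS`**, for a given root group datum, with the `G`-side as hypothesis -/
theorem q2_rgd [Finite M.Group] [Fact (Nat.Prime 2)] (hl : 2 ≤ l) (h : EPS H N e)
    (R : RGD M.toCoxeterSystem hC 2 Tt n X) (hBT : BT M.toCoxeterSystem hC 2 Tt X)
    (hG : GG M.toCoxeterSystem hC Tt X = ⊤) (hX : RGD.Sup X {x | IsRoot M.toCoxeterSystem hC x} = ⊤) (hconn : Conn M)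
    (h3 : 3 ≤ l ∨ ∃ i j, Nat.card (X (sr i)) ≠ Nat.card (X (sr j)))
    (hDQ : ∀ (S : PSys T 2 (Fin l)) (e' : N ≃* (Fin k → T)) (J : Fin k → Set (Fin l)), VV e' S J ≠ ⊥ →
      DQ H e' S J) : k = 1 ∧ ∃ (e' : N ≃* (Fin 1 → T)) (R₀ : Subgroup G) (i : Fin l) (t : G),
    Q2 H R₀ e' (ofRGD R hBT hG hX hconn) i t ∧ Nat.card (X (sr i)) = 2 ∧ Res M.toCoxeterSystem hC Tt X i := by
  have := h.simple
  have : Nontrivial (Fin l) := Fin.nontrivial_iff_two_le.2 hl
  have hrk : Rk2 H N k (ofRGD R hBT hG hX hconn) := by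
    rcases h3 with h3 | ⟨i, j, hij⟩
    · exact H515.EPO.rk2_of_three R hBT hG hX hconn h.pos h.nrm (by rwa [Fintype.card_fin])
    · exact H515.EPO.rk2_of_ne R hBT hG hX hconn h.pos h.nrm (i := i) (j := j) hij
  obtain ⟨P, -, hP⟩ := exists_sylIn (p := 2) (H := H) (K := ⊥) bot_le IsPGroup.of_bot
  obtain ⟨e', hPN⟩ := exists_std (ofRGD R hBT hG hX hconn) e h.nrm h.le hP
  obtain ⟨J₀, hJ₀, ⟨i₀, h0⟩, ⟨i₁, h1⟩⟩ := hrk e'
  obtain ⟨-, hk, i, t, c1, c2, c3, c4, c5, c6, c7⟩ := own_two e' h.nab (rk_ofRGD R hBT hG hX hconn) h.ep h.toMinN hP hPN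
    (fun J hJ => hDQ _ e' J hJ) hJ₀ h0 h1
  subst hk
  have q : Q2 H P e' (ofRGD R hBT hG hX hconn) i t :=
    ⟨h.ep, h.toMinN, hP, hPN, fun J hJ => hDQ _ e' J hJ, c1, c2, c3, c4, c5, c6, c7⟩
  refine ⟨rfl, e', P, i, t, q, ?_, fun K hK => ?_⟩
  · rw [← relIndex_ofRGD R hBT hG hX hconn i]
    exact c2
  · exact q.res_pow' h.nab hK

/-- the same, `G` simple with `HasFilt 2 G`, `T` with `HasFilt 2 T` -/
theorem q2_g1 [IsSimpleGroup G] [Finite M.Group] [Fact (Nat.Prime 2)] (hl : 2 ≤ l) (h : EPS H N e)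
    (hGF : HasFilt 2 G) (R : RGD M.toCoxeterSystem hC 2 Tt n X) (hF : HasFilt 2 T)
    (hX : RGD.Sup X {x | IsRoot M.toCoxeterSystem hC x} = ⊤)
    (h3 : 3 ≤ l ∨ ∃ i j, Nat.card (X (sr i)) ≠ Nat.card (X (sr j))) :
    k = 1 ∧ ∃ (hBT : BT M.toCoxeterSystem hC 2 Tt X) (hG : GG M.toCoxeterSystem hC Tt X = ⊤) (hconn : Conn M)
      (e' : N ≃* (Fin 1 → T)) (R₀ : Subgroup G) (i : Fin l) (t : G),
    Q2 H R₀ e' (ofRGD R hBT hG hX hconn) i t ∧ Nat.card (X (sr i)) = 2 ∧ Res M.toCoxeterSystem hC Tt X i := by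
  have := h.simple
  have hG := GG_eq_top (T := Tt) hX
  have hBT := bt_of_hasFilt R hG hF
  have hconn := KFacts.RgdLieCharP.conn_of_simple R hX (KFacts.RgdLieCharP.center_eq_bot h.nab)
  have hnab : ∃ a b : G, a * b ≠ b * a := by
    obtain ⟨a, b, hab⟩ := h.nab
    refine ⟨(e.symm (fun _ => a) : N), (e.symm (fun _ => b) : N), fun h3 => hab ?_⟩
    have h4 : e.symm (fun _ => a) * e.symm (fun _ => b) = e.symm (fun _ => b) * e.symm (fun _ => a) := Subtype.ext h3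
    rw [← map_mul, ← map_mul] at h4
    exact congrFun (e.symm.injective h4) ⟨0, h.pos⟩
  obtain ⟨hk, h4⟩ := q2_rgd hl h R hBT hG hX hconn h3 fun S e' J hJ => dq_of h hGF hnab (j := MonoidHom.id G)
    Function.injective_id (by rw [MonoidHom.range_eq_top.2 Function.surjective_id]; infer_instance)
    (by rw [MonoidHom.range_eq_top.2 Function.surjective_id]; exact le_top) S e' J hJ
  exact ⟨hk, hBT, hG, hconn, h4⟩

end Cfsg.Agent.H737.EPO
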