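import Cfsg.Agent.H737.EPO.Q2Rgd
import Cfsg.Agent.H218.OWN.Pack
import Cfsg.Agent.H501.PSq.TdC
import Cfsg.Agent.S2129

/-!
# S5745, OWN characteristic, `q = 2`: the socle `³D₄(2)` (helper737)

`dead_td4` : no stabiliser with socle `³D₄(2) ^ k`, from (D2): `2 ^ 3 ∣ |T : K|` for `K < T`, `O_2(K) = 1`.
-/

set_option autoImplicit false
set_option linter.unusedSectionVars false

namespace Cfsg.Agent.H737.EPO.TD4

open CoxeterSystem Cfsg.Agent.ChevalleyStructure.CoxeterGeom Cfsg.Agent.Tits.Roots Cfsg.Agent.Tits.Core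
  Cfsg.Agent.Nodes.BNOf Cfsg.Agent.Nodes.StabComb Cfsg.Agent.Nodes.Bruhat Cfsg.Agent.Nodes.LeviDec
  Cfsg.Agent.KFacts.RgdCharP Cfsg.Agent.H209.EPX Cfsg.Agent.KFacts.RgdFilt Cfsg.Agent.H284.TThree
  Cfsg.Agent.H742.EX.Q2
open Cfsg.Lie Cfsg.Agent.ChevalleyStructure Cfsg.Agent.Nodes

variable {K : Type} [Field K] [Fintype K] (hK : Fintype.card K = 8)

include hK

theorem charP : CharP K 2 := by
  have : Fact (Nat.Prime 2) := ⟨Nat.prime_two⟩
  exact charP_of_card_eq_prime_pow (f := 3) (by rw [hK]; norm_num)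

theorem ipp : IsPrimePow 2 := Nat.prime_two.isPrimePow

theorem card_T : Nat.card ↥(twistedD4 K 2) = 211341312 := by
  have h1 := Cfsg.Agent.S1067.result Nat.prime_two.isPrimePow (K := K) (q := 2) (by rw [hK]; norm_num)
  rw [h1]
  norm_num

theorem aut_dvd : Nat.card (MulAut ↥(twistedD4 K 2)) ∣ 2 ^ 12 * 154791 := by
  have := charP hK
  have : Fact (Nat.Prime 2) := ⟨Nat.prime_two⟩
  have : Finite ↥(twistedD4 K 2) := Nat.finite_of_card_ne_zero (by rw [card_T hK]; norm_num)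
  have h1 := mulAut_dvd ↥(twistedD4 K 2)
  have h2 := Cfsg.Agent.S2129.result (K := K) 2 1 (by rw [hK]; norm_num) le_rfl
  rw [pow_one] at h2
  rw [h2, card_T hK] at h1
  norm_num at h1
  norm_num
  exact h1

/-- the 2-part of the index -/
theorem index_dvd {G : Type*} [Group G] [Finite G] {Fm : Fam} {f : ℕ} (hok : okF Fm f = true) (hord : IsOrd Fm f G)
    {H N : Subgroup G} {e : N ≃* (Fin 1 → ↥(twistedD4 K 2))} (h : EPS H N e) : 2 ^ 3 ∣ H.index := by
  have hf : 1 ≤ f := by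
    cases Fm <;> simp [okF] at hok <;> omega
  by_cases h30 : 15 ≤ f * NF Fm
  · exact two_pow_dvd (pow_dvd_card hf hord) ((card_H_dvd h).trans (aut_dvd hK)) (by decide) h30
  · exfalso
    have h1 := card_T_dvd h
    rw [card_T hK] at h1
    have h2 := card_T_ne h
    rw [card_T hK] at h2
    rw [← gF_eq hord] at h1 h2
    have hf4 : f ≤ 2 := by
      cases Fm <;> simp only [NF] at h30 <;> omega
    cases Fm <;> simp only [NF] at h30 <;> interval_cases f <;>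
      first
        | omega
        | exact absurd hok (by decide)
        | exact h2 (by decide +kernel)
        | exact absurd h1 (by decide +kernel)

/-- **the socle `³D₄(2) ^ k`** -/
theorem dead_td4 {G : Type} [Group G] [Finite G] [IsSimpleGroup G] (hGF : HasFilt 2 G) {Fm : Fam} {f : ℕ}
    (hok : okF Fm f = true) (hord : IsOrd Fm f G) {H N : Subgroup G} {T : Type} [Group T] {k : ℕ}
    {e : N ≃* (Fin k → T)} (h : EPS H N e) (g : T ≃* ↥(twistedD4 K 2))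
    (hD : ∀ L : Subgroup ↥(twistedD4 K 2), L ≠ ⊤ →
      (∀ D : Subgroup ↥(twistedD4 K 2), D ≤ L → IsPGroup 2 D → (∀ g ∈ L, ∀ d ∈ D, g * d * g⁻¹ ∈ D) → D = ⊥) →
      2 ^ 3 ∣ L.index) : False := by
  have hch := charP hK
  have : Fact (Nat.Prime 2) := ⟨Nat.prime_two⟩
  have hK3 : Fintype.card K = 2 ^ 3 := by rw [hK]; norm_num
  have hq : IsPrimePow 2 := Nat.prime_two.isPrimePow
  have : Finite ↥(twistedD4 K 2) := Nat.finite_of_card_ne_zero (by rw [card_T hK]; norm_num)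
  obtain ⟨φ, hφ⟩ := D4Fixed.exists_frob hq hK3
  have hle := D4Fixed.twisted_le_fix hK3 hφ
  have hfin : Finite CoxeterMatrix.G₂.Group :=
    RGDFold.finite_W (hp := RGDTwD4.hp) CoxeterMatrix.G₂.toCoxeterSystem RGDTwD4.isCartan RGDTwD4.foldData
  have R := Cfsg.Agent.Nodes.RGDTwD4.rgd CoxeterMatrix.G₂.toCoxeterSystem hK3 hφ 2
  have hc0 : Nat.card ↥(RGDTwD4.X φ 2 (sr 0)) = 2 := Cfsg.Agent.ClosedExc.TwD4.card_X0 hφ hle hq.two_le hK3
  have hc1 : Nat.card ↥(RGDTwD4.X φ 2 (sr 1)) = 8 := (Cfsg.Agent.ClosedExc.TwD4.card_X1 hφ hle).trans hK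
  have h' := eps_congr h g
  obtain ⟨hk, hBT, hG, hconn, e', R₀, i, t, q, hi, hres⟩ := q2_g1 (l := 2) le_rfl h' hGF R
    (KFacts.RgdFiltTwAll.hasFilt_D4 hq hK3 2) (Cfsg.Agent.Nodes.RGDTwD4.G1_eq_top _ hK3 hφ)
    (Or.inr ⟨0, 1, by rw [hc0, hc1]; norm_num⟩)
  subst hk
  have := h'.simple
  have h1 := q.dvd' h'.nab hBT (index_dvd hK hok hord h') hD
  have hi0 : i = 0 := by
    fin_cases i
    · rfl
    · exfalso
      have h3 : Nat.card ↥(RGDTwD4.X φ 2 (sr 1)) = 2 := hi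
      omega
  subst hi0
  have h3 : 2 ^ 3 ∣ 1 + (PJ CoxeterMatrix.G₂.toCoxeterSystem Nodes.RGDTwD4.isCartan (Nodes.RGDTwD4.T K 2)
    (Nodes.RGDTwD4.X φ 2) {0}ᶜ).index := h1
  have hJ : ({0}ᶜ : Set (Fin 2)) = {1} := by
    ext j; revert j; decide
  rw [hJ, Cfsg.Agent.H501.PSq.index_eq1 hφ hle hq hK3] at h3
  revert h3
  norm_num

end Cfsg.Agent.H737.EPO.TD4
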