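import Cfsg.Agent.H737.EPO.TwoAdic
import Cfsg.Agent.H470.EPO.OwnT

/-!
# S5745 / S3499, OWN characteristic, `q = 2`: two point stabilisers with a normal 2-subgroup (helper737)

`Q2.conj_of_core` : with Borel–Tits: if `M' ∩ N` has a normal 2-subgroup `≠ 1` then `M'` is over a conjugate of a `V_J`.
`Q2.dvd'` : the 2-adic argument, for subgroups `K` with `O_2(K) = 1`.
-/

set_option autoImplicit false
set_option linter.unusedSectionVars false

namespace Cfsg.Agent.H737.EPO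

open Cfsg.Agent.H284 Cfsg.Agent.H209.EPX MulAction
open scoped Pointwise

theorem mem_nz {G : Type*} [Group G] {L : Subgroup G} {y : G} :
    y ∈ Subgroup.normalizer (L : Set G) ↔ cj y L = L := by
  constructor
  · intro h3
    ext z
    rw [mem_cj]
    have h4 := Subgroup.mem_normalizer_iff.1 h3 (y⁻¹ * z * y)
    have e1 : y * (y⁻¹ * z * y) * y⁻¹ = z := by group
    rwa [e1] at h4
  · intro h3
    rw [Subgroup.mem_normalizer_iff]
    intro z
    constructor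
    · intro hz
      rw [← h3]
      exact ⟨z, hz, rfl⟩
    · intro hz
      rw [← h3, mem_cj] at hz
      have e1 : y⁻¹ * (y * z * y⁻¹) * y = z := by group
      rwa [e1] at hz

theorem nz_of {G : Type*} [Group G] [Finite G] {L : Subgroup G} {y : G} (h : ∀ d ∈ L, y * d * y⁻¹ ∈ L) :
    y ∈ Subgroup.normalizer (L : Set G) := mem_nz.2 (cj_eq_of_nm h)

theorem of_nz {G : Type*} [Group G] {L : Subgroup G} {y : G} (h : y ∈ Subgroup.normalizer (L : Set G)) {d : G}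
    (hd : d ∈ L) : y * d * y⁻¹ ∈ L := (Subgroup.mem_normalizer_iff.1 h d).1 hd

/-- `O_p(K)` -/
theorem exists_core {G : Type*} [Group G] [Finite G] {p : ℕ} [Fact p.Prime] (K : Subgroup G) :
    ∃ O : Subgroup G, O ≤ K ∧ IsPGroup p O ∧ (∀ g ∈ K, ∀ x ∈ O, g * x * g⁻¹ ∈ O) ∧
      ∀ D : Subgroup G, D ≤ K → IsPGroup p D → (∀ g ∈ K, ∀ x ∈ D, g * x * g⁻¹ ∈ D) → D ≤ O := by
  classical
  let S : Set (Subgroup G) := {O | O ≤ K ∧ IsPGroup p O ∧ ∀ g ∈ K, ∀ x ∈ O, g * x * g⁻¹ ∈ O}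
  have hne : S.Nonempty := ⟨⊥, bot_le, IsPGroup.of_bot, fun g _ x hx => by
    rw [Subgroup.mem_bot] at hx ⊢
    rw [hx]; group⟩
  obtain ⟨O, ⟨h1, h2, h3⟩, h4⟩ := Set.Finite.exists_maximal (Set.toFinite S) hne
  refine ⟨O, h1, h2, h3, fun D hD hDp hDn => ?_⟩
  have h5 : O ⊔ D ∈ S := by
    refine ⟨sup_le h1 hD, ?_, ?_⟩
    · refine IsPGroup.to_sup_of_normal_right' h2 hDp ?_
      intro g hg
      rw [Subgroup.mem_normalizer_iff]
      intro d
      refine ⟨fun hd => hDn g (h1 hg) d hd, fun hd => ?_⟩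
      have := hDn g⁻¹ (inv_mem (h1 hg)) _ hd
      simpa [mul_assoc] using this
    · intro g hg x hx
      have h6 : O ⊔ D ≤ (O ⊔ D).comap (MulAut.conj g).toMonoidHom := by
        refine sup_le (fun y hy => ?_) (fun y hy => ?_)
        · exact (le_sup_left : O ≤ O ⊔ D) (h3 g hg y hy)
        · exact (le_sup_right : D ≤ O ⊔ D) (hDn g hg y hy)
      exact h6 hx
  exact le_sup_right.trans (h4 h5 le_sup_left)

/-- the `p`-core is normalised by the elements normalising `K` -/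
theorem core_inv {G : Type*} [Group G] {p : ℕ} {K O : Subgroup G} (h1 : O ≤ K) (h2 : IsPGroup p O)
    (h3 : ∀ g ∈ K, ∀ x ∈ O, g * x * g⁻¹ ∈ O)
    (h4 : ∀ D : Subgroup G, D ≤ K → IsPGroup p D → (∀ g ∈ K, ∀ x ∈ D, g * x * g⁻¹ ∈ D) → D ≤ O) {m : G}
    (hm : cj m K = K) : ∀ x ∈ O, m * x * m⁻¹ ∈ O := by
  intro x hx
  refine h4 (cj m O) ?_ (h2.map _) ?_ ⟨x, hx, rfl⟩
  · conv_rhs => rw [← hm]
    exact cj_mono h1
  · rintro g hg _ ⟨y, hy, rfl⟩
    rw [← hm] at hg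
    obtain ⟨k, hk, rfl⟩ := hg
    exact ⟨k * y * k⁻¹, h3 k hk y hy, by
      show m * (k * y * k⁻¹) * m⁻¹ = m * k * m⁻¹ * (m * y * m⁻¹) * (m * k * m⁻¹)⁻¹
      group⟩

namespace Q2

variable {G Y : Type*} [Group G] [Finite G] [Group Y] [Finite Y] {H N R : Subgroup G}
  {e : N ≃* (Fin 1 → Y)} {I : Type*} {S : PSys Y 2 I} [IsSimpleGroup Y] (hY : ∃ a b : Y, a * b ≠ b * a)
  {i : I} {t : G} (q : Q2 H R e S i t)

include q

omit [Finite G] [Finite Y] [IsSimpleGroup Y] q in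
theorem _root_.Cfsg.Agent.H737.EPO.exists_sg {x : G} (hx : x ∈ N) : ∃ y : Y, sg e 0 y = x := by
  refine ⟨cp e x 0, ?_⟩
  have h1 : e ⟨x, hx⟩ = Pi.mulSingle 0 (cp e x 0) := by
    funext j
    have hj : j = 0 := Subsingleton.elim _ _
    subst hj
    rw [Pi.mulSingle_eq_same, cp_eq e hx]
  show ((e.symm (Pi.mulSingle 0 (cp e x 0)) : N) : G) = x
  rw [← h1, e.symm_apply_apply]

omit [Finite G] [Finite Y] [IsSimpleGroup Y] q in
theorem _root_.Cfsg.Agent.H737.EPO.map_fac {D : Subgroup G} (hD : D ≤ N) : (fac e D 0).map (sg e 0) = D := by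
  ext x
  constructor
  · rintro ⟨y, hy, rfl⟩
    exact hy
  · intro hx
    obtain ⟨y, rfl⟩ := exists_sg (e := e) (hD hx)
    exact ⟨y, hx, rfl⟩

include hY

/-- **a two point stabiliser `M'` such that `M' ∩ N` has a normal 2-subgroup is over a conjugate of a `V_J`** -/
theorem conj_of_core (hBT : ∀ K : Subgroup Y, IsPGroup 2 K → K ≠ ⊥ → ∃ (g : Y) (J : Set I), J ≠ Set.univ ∧
      K ≤ cj g (S.V J) ∧ Subgroup.normalizer (K : Set Y) ≤ cj g (S.P J))
    {M' : Subgroup G} (hM' : M' ∈ EP.twoSet H) {D₀ : Subgroup Y} (hD₀ : D₀ ≤ fac e M' 0) (hp : IsPGroup 2 D₀)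
    (hne : D₀ ≠ ⊥) (hn : ∀ g ∈ fac e M' 0, ∀ d ∈ D₀, g * d * g⁻¹ ∈ D₀) :
    ∃ (J : Set I) (g : Y), J ≠ Set.univ ∧ cj g (S.V J) ≤ fac e M' 0 := by
  classical
  have : Fact (Nat.Prime 2) := ⟨Nat.prime_two⟩
  have hmx := mx_of_two q.ep q.minN hM'
  have hnN : ∀ m ∈ M', ∀ x ∈ N, m * x * m⁻¹ ∈ N := fun m hm x hx => q.minN.nrm m (hmx.le hm) x hx
  have hcjN : ∀ m ∈ M', cj m N = N := by
    intro m hm
    refine cj_eq_of_nm (fun x hx => hnN m hm x hx)
  -- the 2-subgroups of `N` normalised by `M'`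
  let 𝒟 : Set (Subgroup G) := {D | D ≤ N ∧ IsPGroup 2 D ∧ D ≠ ⊥ ∧ ∀ m ∈ M', ∀ x ∈ D, m * x * m⁻¹ ∈ D}
  have hnon : 𝒟.Nonempty := by
    obtain ⟨O, h1, h2, h3, h4⟩ := exists_core (p := 2) (M' ⊓ N)
    refine ⟨O, h1.trans inf_le_right, h2, ?_, ?_⟩
    · intro h5
      have h6 : D₀.map (sg e 0) ≤ O := by
        refine h4 _ ?_ (hp.map _) ?_
        · rintro _ ⟨y, hy, rfl⟩
          exact ⟨hD₀ hy, sg_mem e 0 y⟩
        · rintro g ⟨hg, hgN⟩ _ ⟨y, hy, rfl⟩
          obtain ⟨z, rfl⟩ := exists_sg (e := e) hgN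
          exact ⟨z * y * z⁻¹, hn z hg y hy, by rw [map_mul, map_mul, map_inv]⟩
      rw [h5, le_bot_iff] at h6
      exact hne ((Subgroup.map_eq_bot_iff_of_injective _ sg_inj).1 h6)
    · intro m hm
      refine core_inv h1 h2 h3 h4 ?_
      rw [cj_inf, hcjN m hm, cj_eq_self hm]
  obtain ⟨D, ⟨hDN, hDp, hDne, hDm⟩, hDmax⟩ := Set.Finite.exists_maximal (Set.toFinite 𝒟) hnon
  -- Borel–Tits
  let E := fac e D 0
  have hED : E.map (sg e 0) = D := map_fac hDN
  have hEp : IsPGroup 2 E := hDp.comap_of_injective _ sg_inj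
  have hEne : E ≠ ⊥ := by
    intro h1
    rw [h1, Subgroup.map_bot] at hED
    exact hDne hED.symm
  obtain ⟨g, J, hJ, hEV, hEP⟩ := hBT E hEp hEne
  -- the normaliser of `D` in `N`
  let Q : Subgroup G := (Subgroup.normalizer (D : Set G)) ⊓ N
  have hQ : ∀ x ∈ Q, ∀ d ∈ D, x * d * x⁻¹ ∈ D := fun x hx d hd => (Subgroup.mem_normalizer_iff.1 hx.1 d).1 hd
  have hQm : ∀ m ∈ M', cj m Q = Q := by
    intro m hm
    rw [cj_inf, hcjN m hm]
    congr 1
    have h1 : cj m D = D := cj_eq_of_nm fun x hx => hDm m hm x hx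
    ext x
    rw [mem_cj, mem_nz, mem_nz, cj_mul, cj_mul, h1]
    constructor
    · intro h3
      have h4 := congrArg (cj m) h3
      rw [cj_cj_inv, h1] at h4
      exact h4
    · intro h3
      rw [h3]
      conv_lhs => rw [← h1]
      exact cj_inv_cj _ _
  obtain ⟨O, h1, h2, h3, h4⟩ := exists_core (p := 2) Q
  have hDQ : D ≤ Q := fun d hd => Subgroup.mem_inf.2
    ⟨nz_of fun x hx => mul_mem (mul_mem hd hx) (inv_mem hd), hDN hd⟩
  have hDO : D ≤ O := h4 D hDQ hDp fun x hx d hd => hQ x hx d hd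
  have hOD : O = D := by
    refine le_antisymm (hDmax ⟨h1.trans inf_le_right, h2, ?_, fun m hm => core_inv h1 h2 h3 h4 (hQm m hm)⟩ hDO) hDO
    intro h5
    rw [h5, le_bot_iff] at hDO
    exact hDne hDO
  -- `D` is a conjugate of `V_J`
  have hVE : cj g (S.V J) = E := by
    by_contra hne'
    have hlt : E < cj g (S.V J) := lt_of_le_of_ne hEV (Ne.symm hne')
    have hVp : IsPGroup 2 (cj g (S.V J)) := (S.V_p J).map _
    -- normalisers grow
    obtain ⟨x, hxV, hxE, hxn⟩ : ∃ x ∈ cj g (S.V J), x ∉ E ∧ ∀ d ∈ E, x * d * x⁻¹ ∈ E := by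
      have hnil : Group.IsNilpotent (cj g (S.V J)) := hVp.isNilpotent
      have hnc : NormalizerCondition (cj g (S.V J)) := Group.normalizerCondition_of_isNilpotent
      have hlt' : E.subgroupOf (cj g (S.V J)) < ⊤ := by
        rw [lt_top_iff_ne_top, Ne, Subgroup.subgroupOf_eq_top]
        exact not_le_of_gt hlt
      obtain ⟨x, hx1, hx2⟩ := SetLike.exists_of_lt (hnc _ hlt')
      refine ⟨x, x.2, fun h5 => hx2 (Subgroup.mem_subgroupOf.2 h5), fun d hd => ?_⟩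
      have h6 := (Subgroup.mem_normalizer_iff.1 hx1 ⟨d, hEV hd⟩).1 (Subgroup.mem_subgroupOf.2 hd)
      exact h6
    -- `V_J^g ∩ N(E)` is a normal 2-subgroup of `N(E)`
    let F : Subgroup Y := cj g (S.V J) ⊓ Subgroup.normalizer (E : Set Y)
    have hF : F.map (sg e 0) ≤ O := by
      refine h4 _ ?_ ((hVp.to_le inf_le_left).map _) ?_
      · rintro _ ⟨y, hy, rfl⟩
        refine Subgroup.mem_inf.2 ⟨nz_of fun d hd => ?_, sg_mem e 0 y⟩
        obtain ⟨d', rfl⟩ := exists_sg (e := e) (hDN hd)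
        have h5 : y * d' * y⁻¹ ∈ E := of_nz hy.2 hd
        have h6 : sg e 0 (y * d' * y⁻¹) ∈ D := h5
        rwa [map_mul, map_mul, map_inv] at h6
      · rintro x ⟨hx, hxN⟩ _ ⟨y, hy, rfl⟩
        obtain ⟨z, rfl⟩ := exists_sg (e := e) hxN
        have hz : z ∈ Subgroup.normalizer (E : Set Y) := nz_of fun w hw => by
          have h5 := of_nz hx (d := sg e 0 w) hw
          rw [← map_inv, ← map_mul, ← map_mul] at h5
          exact h5
        refine ⟨z * y * z⁻¹, Subgroup.mem_inf.2 ⟨?_, mul_mem (mul_mem hz (Subgroup.mem_inf.1 hy).2) (inv_mem hz)⟩, by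
          rw [map_mul, map_mul, map_inv]⟩
        obtain ⟨b, hb, hbz⟩ := hEP hz
        obtain ⟨v, hv, hvy⟩ := hy.1
        refine ⟨b * v * b⁻¹, (Subgroup.mem_normalizer_iff.1 (S.V_norm J hb) v).1 hv, ?_⟩
        rw [← hbz, ← hvy]
        show g * (b * v * b⁻¹) * g⁻¹ = g * b * g⁻¹ * (g * v * g⁻¹) * (g * b * g⁻¹)⁻¹
        group
    have h5 : x ∈ F := Subgroup.mem_inf.2 ⟨hxV, nz_of hxn⟩
    apply hxE
    have h6 : sg e 0 x ∈ O := hF ⟨x, h5, rfl⟩
    rw [hOD] at h6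
    exact h6
  refine ⟨J, g, hJ, ?_⟩
  rw [hVE]
  -- `D ≤ M'` by maximality of `M'`
  let L : Subgroup G := (Subgroup.normalizer (D : Set G)) ⊓ H
  have hML : M' ≤ L := fun m hm => Subgroup.mem_inf.2 ⟨nz_of (hDm m hm), hmx.le hm⟩
  have hDL : D ≤ L := fun d hd => ⟨(hDQ hd).1, q.minN.le (hDN hd)⟩
  rcases hmx.max L hML inf_le_right with h5 | h5
  · intro y hy
    rw [← h5] at *
    exact hDL hy
  · exfalso
    have h6 := q.minN.min D hDN ⟨hDN.trans q.minN.le, fun x hx d hd => by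
      rw [← h5] at hx
      exact (Subgroup.mem_normalizer_iff.1 hx.1 d).1 hd⟩
    rcases h6 with h6 | h6
    · exact hDne h6
    · apply H470.EPO.not_isPGroup (T := Y) (p := 2) hY
      intro y
      obtain ⟨k, hk⟩ := hDp ⟨sg e 0 y, by rw [h6]; exact sg_mem e 0 y⟩
      refine ⟨k, sg_inj (e := e) ?_⟩
      rw [map_pow, map_one]
      exact congrArg Subtype.val hk

/-- the 2-adic argument, for the two point stabilisers -/
theorem dvd_two {d : ℕ} (hd : d ∣ H.index)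
    (hP : ∀ M' ∈ EP.twoSet H, (∀ J : Set I, J ≠ Set.univ → ∀ g, ¬ cj g (S.V J) ≤ fac e M' 0) →
      d ∣ (fac e M' 0).index) : d ∣ 1 + (S.P {i}ᶜ).index := by
  classical
  let _ : MulAction Y (EP.twoSet H) :=
    { smul := fun y M' => ⟨cj (sg e 0 y) M', PanelB.cj_mem_twoSet M'.2 (q.sgH y)⟩
      one_smul := fun M' => Subtype.ext (by
        show cj (sg e 0 1) (M' : Subgroup G) = M'
        rw [map_one, cj_one])
      mul_smul := fun a b M' => Subtype.ext (by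
        show cj (sg e 0 (a * b)) (M' : Subgroup G) = cj (sg e 0 a) (cj (sg e 0 b) M')
        rw [map_mul, cj_mul]) }
  have hsm : ∀ (y : Y) (M' : EP.twoSet H), ((y • M' : EP.twoSet H) : Subgroup G) = cj (sg e 0 y) M' := fun _ _ => rfl
  have hst : ∀ M' : EP.twoSet H, MulAction.stabilizer Y M' = fac e (M' : Subgroup G) 0 := by
    intro M'
    ext y
    rw [MulAction.mem_stabilizer_iff, mem_fac, Subtype.ext_iff, hsm]
    exact ⟨fun h1 => q.self_norm hY M'.2 (q.sgH y) h1, fun h1 => cj_eq_self h1⟩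
  have hcard : ∀ M' : EP.twoSet H, Nat.card (orbit Y M') = (fac e (M' : Subgroup G) 0).index := by
    intro M'
    rw [← hst, MulAction.index_stabilizer, Nat.card_coe_set_eq]
  have := Fintype.ofFinite (EP.twoSet H)
  let x₀ : EP.twoSet H := ⟨_, q.twoM⟩
  let f : EP.twoSet H → ℕ := fun M' => EP.nfix H M' - 1
  have hf : ∀ (y : Y) (M' : EP.twoSet H), f (y • M') = f M' := by
    intro y M'
    show EP.nfix H (cj (sg e 0 y) M') - 1 = EP.nfix H M' - 1
    rw [nfix_cj]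
  -- the sum
  have h1 : H.index = 1 + ∑ M' : EP.twoSet H, f M' := by
    rw [q.ep.index_eq_sum, finsum_mem_def, ← finsum_mem_def, finsum_mem_eq_finite_toFinset_sum _ (Set.toFinite _)]
    congr 1
    symm
    refine Finset.sum_bij (fun (M' : EP.twoSet H) _ => (M' : Subgroup G)) ?_ ?_ ?_ ?_
    · intro M' _
      rw [Set.Finite.mem_toFinset]
      exact M'.2
    · intro a _ b _ hab
      exact Subtype.ext hab
    · intro M' hM'
      rw [Set.Finite.mem_toFinset] at hM'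
      exact ⟨⟨M', hM'⟩, Finset.mem_univ _, rfl⟩
    · intro _ _
      rfl
  have h2 : ∑ M' : EP.twoSet H, f M' =
      ∑ M' : EP.twoSet H, (if M' ∈ orbit Y x₀ then f M' else 0) +
      ∑ M' : EP.twoSet H, (if M' ∈ orbit Y x₀ then 0 else f M') := by
    rw [← Finset.sum_add_distrib]
    refine Finset.sum_congr rfl fun M' _ => ?_
    by_cases h3 : M' ∈ orbit Y x₀
    · rw [if_pos h3, if_pos h3, add_zero]
    · rw [if_neg h3, if_neg h3, zero_add]
  have hfx : f x₀ = 1 := by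
    show EP.nfix H (PH H e S fun _ => {i}ᶜ) - 1 = 1
    rw [q.nfix_M]
  have hidx : (fac e (x₀ : Subgroup G) 0) = S.P {i}ᶜ := by
    ext y
    rw [mem_fac]
    have h3 : PH H e S (fun _ => {i}ᶜ) ⊓ N = PP e S fun _ => {i}ᶜ := PH_inf e S q.minN.le _
    have h4 : sg e 0 y ∈ PH H e S (fun _ => {i}ᶜ) ↔ sg e 0 y ∈ PP e S (fun _ => {i}ᶜ) := by
      rw [← h3]
      exact ⟨fun h => ⟨h, sg_mem e 0 y⟩, fun h => h.1⟩
    show sg e 0 y ∈ PH H e S (fun _ => {i}ᶜ) ↔ _
    rw [h4]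
    exact sg_mem_pk e
  rw [sum_orbit f hf x₀, hfx, mul_one, hcard x₀, hidx] at h2
  have h3 : d ∣ ∑ M' : EP.twoSet H, (if M' ∈ orbit Y x₀ then 0 else f M') := by
    refine dvd_sum_of_orbit (A := Y) _ ?_ ?_
    · intro y M'
      have h4 : y • M' ∈ orbit Y x₀ ↔ M' ∈ orbit Y x₀ := by
        rw [← orbit_eq_iff, ← orbit_eq_iff, orbit_smul]
      show (if y • M' ∈ orbit Y x₀ then 0 else f (y • M')) = if M' ∈ orbit Y x₀ then 0 else f M'
      rw [hf y M']
      simp only [h4]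
    · intro M'
      by_cases h4 : M' ∈ orbit Y x₀
      · rw [if_pos h4, mul_zero]
        exact dvd_zero _
      · rw [if_neg h4, hcard]
        apply Dvd.dvd.mul_right
        apply hP M' M'.2
        · intro J hJ g hg
          apply h4
          have h5 : VV e S (fun _ => J) ≤ cj (sg e 0 g)⁻¹ M' := by
            apply pk_le_of_sg
            intro j s hs
            have hj : j = 0 := Subsingleton.elim _ _
            subst hj
            rw [mem_cj, inv_inv]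
            have h6 : g * s * g⁻¹ ∈ fac e (M' : Subgroup G) 0 := hg ⟨s, hs, rfl⟩
            rw [mem_fac, map_mul, map_mul, map_inv] at h6
            exact h6
          obtain ⟨a, ha, h6⟩ := q.conj_M hY (K := fun _ => J) (fun _ => hJ)
            (PanelB.cj_mem_twoSet M'.2 (inv_mem (q.sgH g))) h5
          rw [PP_map] at ha
          obtain ⟨s, -, rfl⟩ := ha
          refine ⟨g * s, Subtype.ext ?_⟩
          show cj (sg e 0 (g * s)) (PH H e S fun _ => {i}ᶜ) = M'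
          rw [map_mul, cj_mul, ← h6, cj_cj_inv]
  rw [h1, h2, ← add_assoc] at hd
  exact (Nat.dvd_add_left h3).1 hd

/-- **(D)** the 2-adic argument, for subgroups `K` with `O_2(K) = 1` -/
theorem dvd' (hBT : ∀ K : Subgroup Y, IsPGroup 2 K → K ≠ ⊥ → ∃ (g : Y) (J : Set I), J ≠ Set.univ ∧
      K ≤ cj g (S.V J) ∧ Subgroup.normalizer (K : Set Y) ≤ cj g (S.P J)) {d : ℕ} (hd : d ∣ H.index)
    (hP : ∀ K : Subgroup Y, K ≠ ⊤ →
      (∀ D : Subgroup Y, D ≤ K → IsPGroup 2 D → (∀ g ∈ K, ∀ d ∈ D, g * d * g⁻¹ ∈ D) → D = ⊥) → d ∣ K.index) :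
    d ∣ 1 + (S.P {i}ᶜ).index := by
  refine q.dvd_two hY hd fun M' hM' hV => hP _ (fac_ne_top e hY q.minN (mx_of_two q.ep q.minN hM') 0) ?_
  intro D hDK hDp hDn
  by_contra hne
  obtain ⟨J, g, hJ, hg⟩ := q.conj_of_core hY hBT hM' hDK hDp hne hDn
  exact hV J hJ g hg

end Q2

end Cfsg.Agent.H737.EPO
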