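import Cfsg.Agent.H737.EPO.TwoB
import Cfsg.Agent.H284.EP.Crit

/-!
# S5745 / S3499, OWN characteristic, `q = 2`: the 2-adic argument (helper737)

`Q2.dvd` : if `d ∣ |G : H|` and `d ∣ |Y : K|` for all `K < Y` over no conjugate of a `V_J`, `J ≠ I`, then
`d ∣ 1 + |Y : P_{I - i}|`.
Proof: the points of `G/H` but `H` itself are on lines, the lines are the elements of `twoSet H`, on which `Y` acts
by conjugation with self normalising elements.  The elements over a conjugate of a `V_J` are the conjugates of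
`P_{I - i}(H)`, their lines have one more point.
-/

set_option autoImplicit false
set_option linter.unusedSectionVars false

namespace Cfsg.Agent.H737.EPO

open Cfsg.Agent.H284 Cfsg.Agent.H209.EPX MulAction
open scoped Pointwise

/-- sums over orbits -/
theorem dvd_sum_of_orbit {A X : Type*} [Group A] [MulAction A X] [Fintype X] (f : X → ℕ)
    (hf : ∀ (a : A) x, f (a • x) = f x) {d : ℕ} (hd : ∀ x, d ∣ Nat.card (orbit A x) * f x) : d ∣ ∑ x, f x := by
  classical
  rw [← Finset.sum_fiberwise Finset.univ (fun x : X => (Quotient.mk (orbitRel A X) x)) f]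
  refine Finset.dvd_sum fun ω _ => ?_
  induction ω using Quotient.inductionOn with
  | h x₀ =>
    have h1 : ∑ x with Quotient.mk (orbitRel A X) x = Quotient.mk (orbitRel A X) x₀, f x =
        ∑ x with Quotient.mk (orbitRel A X) x = Quotient.mk (orbitRel A X) x₀, f x₀ := by
      refine Finset.sum_congr rfl fun x hx => ?_
      obtain ⟨a, ha⟩ := Quotient.exact (Finset.mem_filter.1 hx).2
      rw [← ha]
      exact hf a x₀
    rw [h1, Finset.sum_const, smul_eq_mul]
    have h2 : (Finset.univ.filter fun x => Quotient.mk (orbitRel A X) x = Quotient.mk (orbitRel A X) x₀).card =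
        Nat.card (orbit A x₀) := by
      rw [Nat.card_coe_set_eq, Set.ncard_eq_toFinset_card']
      congr 1
      ext x
      rw [Finset.mem_filter, Set.mem_toFinset]
      constructor
      · rintro ⟨-, h3⟩
        exact Quotient.exact h3
      · intro h3
        exact ⟨Finset.mem_univ _, Quotient.sound h3⟩
    rw [h2]
    exact hd x₀

theorem sum_orbit {A X : Type*} [Group A] [MulAction A X] [Fintype X] (f : X → ℕ)
    (hf : ∀ (a : A) x, f (a • x) = f x) (x₀ : X) [DecidablePred (· ∈ orbit A x₀)] :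
    ∑ x, (if x ∈ orbit A x₀ then f x else 0) = Nat.card (orbit A x₀) * f x₀ := by
  classical
  rw [← Finset.sum_filter]
  have h1 : ∑ x with x ∈ orbit A x₀, f x = ∑ x with x ∈ orbit A x₀, f x₀ := by
    refine Finset.sum_congr rfl fun x hx => ?_
    obtain ⟨a, ha⟩ := (Finset.mem_filter.1 hx).2
    rw [← ha]
    exact hf a x₀
  rw [h1, Finset.sum_const, smul_eq_mul, Nat.card_coe_set_eq, Set.ncard_eq_toFinset_card']
  congr 2
  ext x
  rw [Finset.mem_filter, Set.mem_toFinset]
  exact ⟨fun h => h.2, fun h => ⟨Finset.mem_univ _, h⟩⟩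

theorem nfix_cj {G : Type*} [Group G] {H M : Subgroup G} (a : G) : EP.nfix H (cj a M) = EP.nfix H M := by
  rw [EP.nfix_eq, EP.nfix_eq]
  have h1 : fixPts (G ⧸ H) (cj a M) = (fun c => a • c) '' fixPts (G ⧸ H) M := by
    ext c
    constructor
    · intro h2
      refine ⟨a⁻¹ • c, ?_, smul_inv_smul a c⟩
      rw [← smul_mem_fixPts (g := a), smul_inv_smul]
      exact h2
    · rintro ⟨c, h2, rfl⟩
      exact smul_mem_fixPts.2 h2
  rw [h1]
  exact Set.ncard_image_of_injective _ (MulAction.injective a)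

namespace Q2

variable {G Y : Type*} [Group G] [Finite G] [Group Y] [Finite Y] {H N R : Subgroup G}
  {e : N ≃* (Fin 1 → Y)} {I : Type*} {S : PSys Y 2 I} [IsSimpleGroup Y] (hY : ∃ a b : Y, a * b ≠ b * a)
  {i : I} {t : G} (q : Q2 H R e S i t)

include q

theorem sgH (y : Y) : sg e 0 y ∈ H := q.minN.le (sg_mem e 0 y)

omit [Finite Y] [IsSimpleGroup Y] in
/-- the lines of `M` have two points -/
theorem nfix_M : EP.nfix H (PH H e S fun _ => {i}ᶜ) = 2 := by
  rw [EP.nfix_eq]
  have h1 : fixPts (G ⧸ H) (PH H e S fun _ => {i}ᶜ) = {((1 : G) : G ⧸ H), ((t : G) : G ⧸ H)} := by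
    ext c
    induction c using QuotientGroup.induction_on with
    | H x =>
      rw [mem_fixPts, EP.stab_coe, Set.mem_insert_iff, Set.mem_singleton_iff, QuotientGroup.eq, QuotientGroup.eq]
      constructor
      · intro h2
        rcases q.line x h2 with h3 | h3
        · left
          rw [mul_one]
          exact inv_mem h3
        · right
          have e1 : x⁻¹ * t = (t⁻¹ * x)⁻¹ := by group
          rw [e1]
          exact inv_mem h3
      · rintro (h2 | h2)
        · have hx : x ∈ H := by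
            rw [mul_one] at h2
            exact inv_mem_iff.1 h2
          rw [cj_eq_self hx]
          exact inf_le_left
        · have h3 : cj x H = cj t H := by
            have e1 : t = x * (x⁻¹ * t) := by group
            rw [e1, cj_mul, cj_eq_self h2]
          rw [h3, ← q.two]
          exact inf_le_right
  rw [h1]
  refine Set.ncard_pair fun h2 => q.tH ?_
  rw [QuotientGroup.eq, inv_one, one_mul] at h2
  exact h2

include hY

/-- two point stabilisers are self normalising -/
theorem self_norm {M' : Subgroup G} (hM' : M' ∈ EP.twoSet H) {x : G} (hx : x ∈ H) (h1 : cj x M' = M') : x ∈ M' := by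
  obtain ⟨y, hy, rfl⟩ := hM'
  -- the normaliser of `M'` in `H`
  let L : Subgroup G :=
    { carrier := {z | z ∈ H ∧ cj z (H ⊓ cj y H) = H ⊓ cj y H}
      one_mem' := ⟨one_mem _, cj_one _⟩
      mul_mem' := by
        rintro a b ⟨ha, ha'⟩ ⟨hb, hb'⟩
        refine ⟨mul_mem ha hb, ?_⟩
        rw [cj_mul, hb', ha']
      inv_mem' := by
        rintro a ⟨ha, ha'⟩
        refine ⟨inv_mem ha, ?_⟩
        conv_lhs => rw [← ha']
        exact cj_inv_cj _ _ }
  have hL : ∀ z, z ∈ L ↔ z ∈ H ∧ cj z (H ⊓ cj y H) = H ⊓ cj y H := fun _ => Iff.rfl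
  have hML : H ⊓ cj y H ≤ L := fun z hz => ⟨hz.1, cj_eq_self hz⟩
  rcases q.ep.two y hy L hML (fun z hz => hz.1) with h2 | h2
  · rw [← h2]
    exact ⟨hx, h1⟩
  · exfalso
    have h3 : H ⊓ cj y H = ⊥ := by
      refine q.ep.F1 inf_le_left (fun g hg k hk => ?_) hy inf_le_right
      have h4 : g ∈ L := by rw [h2]; exact hg
      rw [← ((hL g).1 h4).2]
      exact ⟨k, hk, rfl⟩
    have hmx := mx_of_two q.ep q.minN ⟨y, hy, rfl⟩
    rw [h3] at hmx
    have h4 := hmx.max (PP e S fun _ => ∅) bot_le ((PP_le e S _).trans q.minN.le)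
    rcases h4 with h4 | h4
    · have h5 : VV e S (fun _ => ∅) = ⊥ := by
        rw [eq_bot_iff, ← h4]
        exact VV_le_PP' e S _ _
      exact VV_ne_bot e (i := (0 : Fin 1)) (J := fun _ => (∅ : Set I))
        (fun h6 => by
          have : i ∈ (∅ : Set I) := by rw [h6]; trivial
          exact this) h5
    · have h5 : PP e S (fun _ => (∅ : Set I)) = PP e S (fun _ => {i}) := by
        apply le_antisymm
        · exact (PP_le_iff e S).2 fun _ => Set.empty_subset _
        · rw [h4]
          exact (PP_le e S _).trans q.minN.le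
      have h6 := congrFun (PP_inj e S h5) 0
      have : i ∈ (∅ : Set I) := by rw [h6]; rfl
      exact this

/-- **(D)** the 2-adic argument -/
theorem dvd {d : ℕ} (hd : d ∣ H.index)
    (hP : ∀ K : Subgroup Y, K ≠ ⊤ → (∀ J : Set I, J ≠ Set.univ → ∀ g, ¬ cj g (S.V J) ≤ K) → d ∣ K.index) :
    d ∣ 1 + (S.P {i}ᶜ).index := by
  classical
  let _ : MulAction Y (EP.twoSet H) :=
    { smul := fun y M' => ⟨cj (sg e 0 y) M', PanelB.cj_mem_twoSet M'.2 (q.sgH y)⟩
      one_smul := fun M' => Subtype.ext (by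
        show cj (sg e 0 1) (M' : Subgroup G) = M'
        rw [map_one, cj_one])
      mul_smul := fun a b M' => Subtype.ext (by
        show cj (sg e 0 (a * b)) (M' : Subgroup G) = cj (sg e 0 a) (cj (sg e 0 b) M')
        rw [map_mul, cj_mul]) }
  have hsm : ∀ (y : Y) (M' : EP.twoSet H), ((y • M' : EP.twoSet H) : Subgroup G) = cj (sg e 0 y) M' := fun _ _ => rfl
  have hst : ∀ M' : EP.twoSet H, MulAction.stabilizer Y M' = fac e (M' : Subgroup G) 0 := by
    intro M'
    ext y
    rw [MulAction.mem_stabilizer_iff, mem_fac, Subtype.ext_iff, hsm]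
    exact ⟨fun h1 => q.self_norm hY M'.2 (q.sgH y) h1, fun h1 => cj_eq_self h1⟩
  have hcard : ∀ M' : EP.twoSet H, Nat.card (orbit Y M') = (fac e (M' : Subgroup G) 0).index := by
    intro M'
    rw [← hst, MulAction.index_stabilizer, Nat.card_coe_set_eq]
  have := Fintype.ofFinite (EP.twoSet H)
  let x₀ : EP.twoSet H := ⟨_, q.twoM⟩
  let f : EP.twoSet H → ℕ := fun M' => EP.nfix H M' - 1
  have hf : ∀ (y : Y) (M' : EP.twoSet H), f (y • M') = f M' := by
    intro y M'
    show EP.nfix H (cj (sg e 0 y) M') - 1 = EP.nfix H M' - 1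
    rw [nfix_cj]
  -- the sum
  have h1 : H.index = 1 + ∑ M' : EP.twoSet H, f M' := by
    rw [q.ep.index_eq_sum, finsum_mem_def, ← finsum_mem_def, finsum_mem_eq_finite_toFinset_sum _ (Set.toFinite _)]
    congr 1
    symm
    refine Finset.sum_bij (fun (M' : EP.twoSet H) _ => (M' : Subgroup G)) ?_ ?_ ?_ ?_
    · intro M' _
      rw [Set.Finite.mem_toFinset]
      exact M'.2
    · intro a _ b _ hab
      exact Subtype.ext hab
    · intro M' hM'
      rw [Set.Finite.mem_toFinset] at hM'
      exact ⟨⟨M', hM'⟩, Finset.mem_univ _, rfl⟩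
    · intro _ _
      rfl
  have h2 : ∑ M' : EP.twoSet H, f M' =
      ∑ M' : EP.twoSet H, (if M' ∈ orbit Y x₀ then f M' else 0) +
      ∑ M' : EP.twoSet H, (if M' ∈ orbit Y x₀ then 0 else f M') := by
    rw [← Finset.sum_add_distrib]
    refine Finset.sum_congr rfl fun M' _ => ?_
    by_cases h3 : M' ∈ orbit Y x₀
    · rw [if_pos h3, if_pos h3, add_zero]
    · rw [if_neg h3, if_neg h3, zero_add]
  have hfx : f x₀ = 1 := by
    show EP.nfix H (PH H e S fun _ => {i}ᶜ) - 1 = 1
    rw [q.nfix_M]
  have hidx : (fac e (x₀ : Subgroup G) 0) = S.P {i}ᶜ := by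
    ext y
    rw [mem_fac]
    have h3 : PH H e S (fun _ => {i}ᶜ) ⊓ N = PP e S fun _ => {i}ᶜ := PH_inf e S q.minN.le _
    have h4 : sg e 0 y ∈ PH H e S (fun _ => {i}ᶜ) ↔ sg e 0 y ∈ PP e S (fun _ => {i}ᶜ) := by
      rw [← h3]
      exact ⟨fun h => ⟨h, sg_mem e 0 y⟩, fun h => h.1⟩
    show sg e 0 y ∈ PH H e S (fun _ => {i}ᶜ) ↔ _
    rw [h4]
    exact sg_mem_pk e
  rw [sum_orbit f hf x₀, hfx, mul_one, hcard x₀, hidx] at h2
  have h3 : d ∣ ∑ M' : EP.twoSet H, (if M' ∈ orbit Y x₀ then 0 else f M') := by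
    refine dvd_sum_of_orbit (A := Y) _ ?_ ?_
    · intro y M'
      have h4 : y • M' ∈ orbit Y x₀ ↔ M' ∈ orbit Y x₀ := by
        rw [← orbit_eq_iff, ← orbit_eq_iff, orbit_smul]
      show (if y • M' ∈ orbit Y x₀ then 0 else f (y • M')) = if M' ∈ orbit Y x₀ then 0 else f M'
      rw [hf y M']
      simp only [h4]
    · intro M'
      by_cases h4 : M' ∈ orbit Y x₀
      · rw [if_pos h4, mul_zero]
        exact dvd_zero _
      · rw [if_neg h4, hcard]
        apply Dvd.dvd.mul_right
        have hmx := mx_of_two q.ep q.minN M'.2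
        apply hP
        · exact fac_ne_top e hY q.minN hmx 0
        · intro J hJ g hg
          apply h4
          have h5 : VV e S (fun _ => J) ≤ cj (sg e 0 g)⁻¹ M' := by
            apply pk_le_of_sg
            intro j s hs
            have hj : j = 0 := Subsingleton.elim _ _
            subst hj
            rw [mem_cj, inv_inv]
            have h6 : g * s * g⁻¹ ∈ fac e (M' : Subgroup G) 0 := hg ⟨s, hs, rfl⟩
            rw [mem_fac, map_mul, map_mul, map_inv] at h6
            exact h6
          obtain ⟨a, ha, h6⟩ := q.conj_M hY (K := fun _ => J) (fun _ => hJ)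
            (PanelB.cj_mem_twoSet M'.2 (inv_mem (q.sgH g))) h5
          rw [PP_map] at ha
          obtain ⟨s, -, rfl⟩ := ha
          refine ⟨g * s, Subtype.ext ?_⟩
          show cj (sg e 0 (g * s)) (PH H e S fun _ => {i}ᶜ) = M'
          rw [map_mul, cj_mul, ← h6, cj_cj_inv]
  rw [h1, h2, ← add_assoc] at hd
  exact (Nat.dvd_add_left h3).1 hd

end Q2

end Cfsg.Agent.H737.EPO
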