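import Cfsg.Agent.H737.EPO.Two

/-!
# S5745 / S3499, OWN characteristic, `q = 2`: one type only, lines of size 2, modules (helper737)

`own_two` : relative rank at least two: `p = 2`, `k = 1` and there is exactly one type `{i}ᶜ` of two point
stabilisers above `R`, their lines have size 2.
`card_vec_K` : for every type `K ≠ I`: the vectors over `V_K` are the vertices of type `i` of the residue and `0`.
-/

set_option autoImplicit false
set_option linter.unusedSectionVars false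

namespace Cfsg.Agent.H737.EPO

open Cfsg.Agent.H284 Cfsg.Agent.H209.EPX
open scoped Pointwise

section

variable {G Y : Type*} [Group G] [Finite G] [Group Y] [Finite Y] {H N R : Subgroup G} {k : ℕ}
  (e : N ≃* (Fin k → Y)) {p : ℕ} {I : Type*} {S : PSys Y p I} [Fact p.Prime]

variable [IsSimpleGroup Y] (hY : ∃ a b : Y, a * b ≠ b * a)

include hY

/-- **relative rank at least two**: one type only and lines of size 2 -/
theorem own_two [Nonempty I] (hS : Rk S) (h : EP H) (hN : MinN N H) (hR : SylIn H R p)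
    (hRN : R ⊓ N = VV e S fun _ => ∅) (hDQ : ∀ J : Fin k → Set I, VV e S J ≠ ⊥ → DQ H e S J)
    {J₀ : Fin k → Set I} (hJ₀ : Inv H e S J₀) {i₀ i₁ : Fin k} (h0 : J₀ i₀ ≠ ∅) (h1 : J₀ i₁ ≠ Set.univ) :
    p = 2 ∧ k = 1 ∧ ∃ (i : I) (t : G), t ∉ H ∧ (S.V {i}).relIndex (S.V ∅) = 2 ∧ Inv H e S (fun _ => {i}) ∧
      H ⊓ cj t H = PH H e S (fun _ => {i}ᶜ) ∧ (∀ r ∈ R, t * r * t⁻¹ ∈ R) ∧
      (∀ x, PH H e S (fun _ => {i}ᶜ) ≤ cj x H → x ∈ H ∨ t⁻¹ * x ∈ H) ∧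
      ∀ M' ∈ EP.twoSet H, R ≤ M' → M' = PH H e S (fun _ => {i}ᶜ) := by
  obtain ⟨hp, hk, ⟨M, hM, hRM⟩, hall⟩ := own_B e hY hS h hN hR hRN hDQ hJ₀ h0 h1
  refine ⟨hp, hk, ?_⟩
  subst hp
  subst hk
  obtain ⟨j, hj2, hjI, hMj⟩ := hall M hM hRM
  have hRBH : R ≤ BH H e S := fun r hr => R_le_BH e S hN.nrm hRN (hR.le hr) fun s hs =>
    mul_mem (mul_mem hr hs) (inv_mem hr)
  -- `{j} ≠ I`
  have hMle := hM
  obtain ⟨y₀, hy₀, hMy₀⟩ := hMle
  have hMH : M ≤ H := by rw [hMy₀]; exact inf_le_left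
  have hju : ({j} : Set I) ≠ Set.univ := by
    intro e1
    have hI : ∀ K : Set I, K = ∅ ∨ K = Set.univ := by
      intro K
      by_cases hK : j ∈ K
      · right
        rw [← Set.univ_subset_iff, ← e1]
        intro a ha
        rw [Set.mem_singleton_iff] at ha
        rwa [ha]
      · left
        rw [Set.eq_empty_iff_forall_notMem]
        intro a ha
        have h2 : a ∈ ({j} : Set I) := by rw [e1]; trivial
        rw [Set.mem_singleton_iff] at h2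
        exact hK (h2 ▸ ha)
    have hi : i₀ = i₁ := Subsingleton.elim _ _
    rcases hI (J₀ i₀) with h2 | h2
    · exact h0 h2
    · exact h1 (hi ▸ h2)
  have hju' : ({j}ᶜ : Set I) ≠ Set.univ := by
    rw [Ne, Set.compl_univ_iff]
    exact Set.singleton_ne_empty j
  have hjc : Inv H e S (fun _ => {j}ᶜ) := Inv.compl e S hN.nrm hjI
  have hPHle : ∀ {K L : Set I}, Inv H e S (fun _ => L) → (PH H e S (fun _ => K) ≤ PH H e S (fun _ => L) ↔ K ⊆ L) := by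
    intro K L hK
    exact ⟨fun h2 => (PH_le_iff e S hN.nrm hN.le hK).1 h2 0, fun h2 => (PH_le_iff e S hN.nrm hN.le hK).2 fun _ => h2⟩
  -- the panel data for `{j}`
  obtain ⟨D₁, Q₁, hVD₁, hDP₁, hDp₁, hDn₁, hQp₁, hQn₁, hDQ₁, hQH₁, hQD₁⟩ := hDQ (fun _ => {j}) (VV_ne_bot e (i := 0) hju)
  have hRP₁ : R ≤ PH H e S (fun _ => {j}) := hRBH.trans (BH_le_PH e S hjI)
  have hDR₁ : D₁ ≤ R := le_R_of_normal hR inf_le_left hRP₁ hDP₁ hDp₁ hDn₁
  have c : PanelB H R (PH H e S fun _ => {j}) D₁ M 2 := by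
    refine panelB_of e S hY h hN hR hRN hM hRM hjI (fun _ => hju) hDR₁ hVD₁ hDn₁ ?_ ?_
    · rw [hMj, hPHle hjc]
      intro h2
      exact h2 (Set.mem_singleton j) (Set.mem_singleton j)
    · intro M' hM' hRM' hPM'
      obtain ⟨o, -, hoI, hMo⟩ := hall M' hM' hRM'
      rw [hMo, hPHle (Inv.compl e S hN.nrm hoI), Set.subset_compl_singleton_iff, Set.mem_singleton_iff, not_not] at hPM'
      rw [hMo, hMj, hPM']
  have np : ∀ x ∉ H, R ≤ cj x H → ∀ g ∈ cj x H, (∀ r ∈ R, g * r * g⁻¹ ∈ R) → g ∈ H := fun x hx hRx g hg hgR =>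
    c.norm_point hx hRx hg hgR
  -- one type
  have huniq : ∀ M' ∈ EP.twoSet H, R ≤ M' → M' = PH H e S (fun _ => {j}ᶜ) := by
    intro M' hM' hRM'
    obtain ⟨D, Q, hVD, hDP, hDp, hDn, hQp, hQn, hDQ', hQH, hQD⟩ := hDQ (fun _ => {j}ᶜ) (VV_ne_bot e (i := 0) hju')
    have hRP : R ≤ PH H e S (fun _ => {j}ᶜ) := hRBH.trans (BH_le_PH e S hjc)
    have hDR : D ≤ R := le_R_of_normal hR inf_le_left hRP hDP hDp hDn
    obtain ⟨W, -, hWD, v⟩ := exists_vecB (Fact.out : (2 : ℕ).Prime) hDn hQp hQn hDQ' hQH hQD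
    refine one_type h inf_le_left hRP hDR (fun e1 => VV_ne_bot e (i := 0) (J := fun _ => {j}ᶜ) hju' (le_bot_iff.1 (e1 ▸ hVD)))
      hDn np v hWD (hMj ▸ hM) ?_ ?_ hM' hRM'
    · intro M'' hM'' hDM''
      obtain ⟨a, ha, h2, -⟩ := par e S hY hN (K := fun _ => {j}ᶜ) (fun _ => hju') (mx_of_two h hN hM'') (hVD.trans hDM'')
      exact ⟨a, PP_le_PH e S hN.le _ ha, hRBH.trans h2⟩
    · intro M₁ hM₁ hRM₁ M₂ hM₂ hle
      obtain ⟨o, -, hoI, hMo⟩ := hall M₁ hM₁ hRM₁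
      have hRM₂ : R ≤ M₂ := (le_inf hRP hRM₁).trans hle
      obtain ⟨o', -, hoI', hMo'⟩ := hall M₂ hM₂ hRM₂
      have h2 : PP e S (fun _ => {j}ᶜ ∩ {o}ᶜ) ≤ PP e S (fun _ => {o'}ᶜ) := by
        rw [← PP_inf, ← PH_inf e S hN.le (fun _ => {o'}ᶜ)]
        refine le_inf ?_ (inf_le_left.trans (PP_le e S _))
        rw [← hMo']
        refine le_trans ?_ hle
        rw [hMo]
        exact inf_le_inf (PP_le_PH e S hN.le _) (PP_le_PH e S hN.le _)
      have h3 := (PP_le_iff e S).1 h2 0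
      by_cases ho1 : o' = j
      · right
        rw [hMo', ho1]
      · by_cases ho2 : o' = o
        · left
          rw [hMo', hMo, ho2]
        · exfalso
          have h4 : o' ∈ ({j}ᶜ ∩ {o}ᶜ : Set I) := ⟨ho1, ho2⟩
          exact h3 h4 rfl
  -- lines
  obtain ⟨W, -, hWD, v⟩ := exists_vecB (Fact.out : (2 : ℕ).Prime) hDn₁ hQp₁ hQn₁ hDQ₁ hQH₁ hQD₁
  have hsgl : sgl (0 : Fin 1) j = fun _ => {j} := by
    funext i'
    have : i' = 0 := Subsingleton.elim _ _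
    rw [this, sgl_same]
  obtain ⟨-, -, h4, hR2⟩ := node_two e hS hN.nrm hN.le hjc hMj c v hWD (i := 0) (j := j) rfl (fun h2 => h2 rfl)
  rw [hsgl] at h4
  have htop : v.fix c.Dn (VV e S fun _ => {j}) = ⊤ := by
    rw [eq_top_iff]
    intro z _
    obtain ⟨w, rfl⟩ := v.vec_surjective z
    rw [v.vec_mem_fix c.Dn c.PH]
    refine inf_le_left.trans ?_
    have h2 : D₁ ≤ cj (w : G) H := by
      rw [← cj_eq_of_nm (v.WD w w.2)]
      exact cj_mono c.DH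
    exact hVD₁.trans h2
  have hV4 : Nat.card v.Vec = 4 := by
    rw [htop, Subgroup.card_top] at h4
    exact h4
  obtain ⟨t, htW, htD, htM⟩ := c.exists_vec v hWD
  have htH := v.notMem_H htW htD
  have hRt : R ≤ cj t H := by
    have := c.RM
    rw [← htM] at this
    exact this.trans inf_le_right
  refine ⟨j, t, htH, hj2, hjI, htM.trans hMj, norm_of_fix v c.PH c.RP c.DR htW hRt, fun x hx => ?_, huniq⟩
  refine line_two c v hV4 hR2 ?_ htW htD htM (by rw [hMj]; exact hx)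
  intro M' hM' hDM'
  obtain ⟨g, hg, hRg⟩ := c.par M' hM' hDM'
  have h2 := huniq _ (PanelB.cj_mem_twoSet hM' (c.PH hg)) hRg
  refine ⟨g⁻¹, inv_mem hg, ?_⟩
  rw [hMj, ← h2, cj_inv_cj]

omit [Finite Y] [IsSimpleGroup Y] hY in
/-- the number of vectors -/
theorem card_vec_of {A P D W M : Subgroup G} (v : VecB H P D W p) (hWD : W ≠ D) (hAP : A ≤ P) (hPH : P ≤ H)
    (hDn : ∀ g ∈ P, ∀ d ∈ D, g * d * g⁻¹ ∈ D)
    (hconj : ∀ w ∈ W, w ∉ D → ∃ a ∈ A, H ⊓ cj w H = cj a M)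
    (hline : ∀ w ∈ W, ∀ w' ∈ W, w ∉ D → w' ∉ D → H ⊓ cj w H = M → H ⊓ cj w' H = M → w⁻¹ * w' ∈ D) :
    Nat.card v.Vec = 1 + M.relIndex A := by
  classical
  have hcD : ∀ a ∈ A, ∀ w, w ∉ D → a * w * a⁻¹ ∉ D := by
    intro a ha w hwD h1
    apply hwD
    have := hDn a⁻¹ (inv_mem (hAP ha)) _ h1
    have e2 : a⁻¹ * (a * w * a⁻¹) * a⁻¹⁻¹ = w := by group
    rwa [e2] at this
  obtain ⟨w₀, hw₀, hw₀D, hw₀M⟩ : ∃ w ∈ W, w ∉ D ∧ H ⊓ cj w H = M := by
    obtain ⟨w, hw, hwD⟩ : ∃ w ∈ W, w ∉ D := by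
      by_contra hcon
      push Not at hcon
      exact hWD (le_antisymm hcon v.DW)
    obtain ⟨a, ha, h1⟩ := hconj w hw hwD
    refine ⟨a⁻¹ * w * a⁻¹⁻¹, v.Wn _ (inv_mem (hAP ha)) w hw, hcD _ (inv_mem ha) w hwD, ?_⟩
    rw [← PanelB.cj_two (inv_mem (hPH (hAP ha))), h1, cj_inv_cj]
  let ρ : A →* MulAut v.Vec := (v.act hDn).comp (Subgroup.inclusion hAP)
  letI : MulAction A v.Vec := MulAction.compHom v.Vec ρ
  have hsmul : ∀ (a : A) (z : v.Vec), a • z = v.act hDn ⟨a, hAP a.2⟩ z := fun _ _ => rfl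
  have hst : MulAction.stabilizer A (v.vec ⟨w₀, hw₀⟩) = M.subgroupOf A := by
    ext a
    rw [MulAction.mem_stabilizer_iff, hsmul, v.act_fix_iff hDn hPH, Subgroup.mem_subgroupOf, ← hw₀M]
    exact ⟨fun h1 => ⟨hPH (hAP a.2), h1⟩, fun h1 => h1.2⟩
  have horb : MulAction.orbit A (v.vec ⟨w₀, hw₀⟩) = {(1 : v.Vec)}ᶜ := by
    ext z
    constructor
    · rintro ⟨a, rfl⟩
      show a • v.vec ⟨w₀, hw₀⟩ ≠ 1
      rw [hsmul]
      intro h1
      rw [map_eq_one_iff _ (MulEquiv.injective _)] at h1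
      exact hw₀D (v.vec_eq_one.1 h1)
    · intro hz
      obtain ⟨⟨w, hw⟩, rfl⟩ := v.vec_surjective z
      have hwD : w ∉ D := fun h1 => hz (v.vec_eq_one.2 h1)
      obtain ⟨a, ha, h1⟩ := hconj w hw hwD
      refine ⟨⟨a, ha⟩, ?_⟩
      show (⟨a, ha⟩ : A) • v.vec ⟨w₀, hw₀⟩ = v.vec ⟨w, hw⟩
      rw [hsmul, v.act_vec, v.vec_eq_iff]
      show (a * w₀ * a⁻¹)⁻¹ * w ∈ D
      have h2 : H ⊓ cj (a⁻¹ * w * a⁻¹⁻¹) H = M := by
        rw [← PanelB.cj_two (inv_mem (hPH (hAP ha))), h1, cj_inv_cj]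
      have h3 := hline w₀ hw₀ _ (v.Wn _ (inv_mem (hAP ha)) w hw) hw₀D (hcD _ (inv_mem ha) w hwD) hw₀M h2
      have h4 := hDn a (hAP ha) _ h3
      have e1 : a * (w₀⁻¹ * (a⁻¹ * w * a⁻¹⁻¹)) * a⁻¹ = (a * w₀ * a⁻¹)⁻¹ * w := by group
      rwa [e1] at h4
  have h1 : M.relIndex A = ({(1 : v.Vec)}ᶜ : Set v.Vec).ncard := by
    rw [← horb, Subgroup.relIndex, ← hst, MulAction.index_stabilizer]
  have h2 := Set.ncard_add_ncard_compl ({(1 : v.Vec)} : Set v.Vec)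
  rw [Set.ncard_singleton] at h2
  rw [h1, ← h2]

end

/-! ### The state after `own_two` -/

/-- the state after `own_two` -/
structure Q2 {G Y : Type*} [Group G] [Group Y] {I : Type*} (H : Subgroup G) {N : Subgroup G} (R : Subgroup G)
    (e : N ≃* (Fin 1 → Y)) (S : PSys Y 2 I) (i : I) (t : G) : Prop where
  ep : EP H
  minN : MinN N H
  syl : SylIn H R 2
  RN : R ⊓ N = VV e S fun _ => ∅
  dq : ∀ J : Fin 1 → Set I, VV e S J ≠ ⊥ → DQ H e S J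
  tH : t ∉ H
  idx : (S.V {i}).relIndex (S.V ∅) = 2
  inv : Inv H e S (fun _ => {i})
  two : H ⊓ cj t H = PH H e S (fun _ => {i}ᶜ)
  tR : ∀ r ∈ R, t * r * t⁻¹ ∈ R
  line : ∀ x, PH H e S (fun _ => {i}ᶜ) ≤ cj x H → x ∈ H ∨ t⁻¹ * x ∈ H
  uniq : ∀ M' ∈ EP.twoSet H, R ≤ M' → M' = PH H e S (fun _ => {i}ᶜ)

namespace Q2

variable {G Y : Type*} [Group G] [Finite G] [Group Y] [Finite Y] {H N R : Subgroup G}
  {e : N ≃* (Fin 1 → Y)} {I : Type*} {S : PSys Y 2 I} [IsSimpleGroup Y] (hY : ∃ a b : Y, a * b ≠ b * a)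
  {i : I} {t : G} (q : Q2 H R e S i t)

include q

theorem nonempty : Nonempty I := ⟨i⟩

theorem RBH : R ≤ BH H e S := fun _ hr => R_le_BH e S q.minN.nrm q.RN (q.syl.le hr) fun _ hs =>
  mul_mem (mul_mem hr hs) (inv_mem hr)

theorem twoM : PH H e S (fun _ => {i}ᶜ) ∈ EP.twoSet H := ⟨t, q.tH, q.two.symm⟩

include hY

/-- two point stabilisers above `V_K` -/
theorem conj_M {K : Fin 1 → Set I} (hK : ∀ j, K j ≠ Set.univ) {M' : Subgroup G} (hM' : M' ∈ EP.twoSet H)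
    (hV : VV e S K ≤ M') : ∃ a ∈ PP e S K, M' = cj a (PH H e S fun _ => {i}ᶜ) := by
  have := q.nonempty
  obtain ⟨a, ha, h1, -⟩ := par e S hY q.minN hK (mx_of_two q.ep q.minN hM') hV
  have haH : a ∈ H := q.minN.le (PP_le e S K ha)
  have h2 := q.uniq _ (PanelB.cj_mem_twoSet hM' haH) (q.RBH.trans h1)
  exact ⟨a⁻¹, inv_mem ha, by rw [← h2, cj_inv_cj]⟩

omit hY [Finite Y] [IsSimpleGroup Y] in
theorem line' {w w' : G} (hw : w ∉ H) (hw' : w' ∉ H) (h1 : H ⊓ cj w H = PH H e S fun _ => {i}ᶜ)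
    (h2 : H ⊓ cj w' H = PH H e S fun _ => {i}ᶜ) : w⁻¹ * w' ∈ H := by
  have h3 := (q.line w (h1.ge.trans inf_le_right)).resolve_left hw
  have h4 := (q.line w' (h2.ge.trans inf_le_right)).resolve_left hw'
  have e1 : w⁻¹ * w' = (t⁻¹ * w)⁻¹ * (t⁻¹ * w') := by group
  rw [e1]
  exact mul_mem (inv_mem h3) h4

/-- **the vectors over `V_K`** -/
theorem card_vec {K : Fin 1 → Set I} (hK : K 0 ≠ Set.univ) {D W : Subgroup G} (hVD : VV e S K ≤ D)
    (hDP : D ≤ PH H e S K) (hDn : ∀ g ∈ PH H e S K, ∀ d ∈ D, g * d * g⁻¹ ∈ D)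
    (v : VecB H (PH H e S K) D W 2) (hWD : W ≠ D) :
    Nat.card v.Vec = 1 + (PP e S fun j => {i}ᶜ ∩ K j).relIndex (PP e S K) := by
  have hK' : ∀ j, K j ≠ Set.univ := fun j => by
    have : j = 0 := Subsingleton.elim _ _
    rw [this]; exact hK
  have hDH : D ≤ H := hDP.trans inf_le_left
  rw [card_vec_of (H := H) (A := PP e S K) (M := PH H e S fun _ => {i}ᶜ) v hWD (PP_le_PH e S q.minN.le K) inf_le_left hDn]
  · rw [M_relIndex e q.minN.nrm q.minN.le (Inv.compl e S q.minN.nrm q.inv) rfl]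
  · intro w hw hwD
    apply q.conj_M hY hK' ⟨w, v.notMem_H hw hwD, rfl⟩
    refine hVD.trans (le_inf hDH ?_)
    rw [← cj_eq_of_nm (v.WD w hw)]
    exact cj_mono hDH
  · intro w hw w' hw' hwD hw'D h1 h2
    rw [← v.WH]
    exact ⟨W.mul_mem (W.inv_mem hw) hw', q.line' (v.notMem_H hw hwD) (v.notMem_H hw' hw'D) h1 h2⟩

/-- **(C)** for every `K ≠ I`: the number of `i`-vertices of the residue, plus 1, is a power of 2 -/
theorem res_pow {K : Fin 1 → Set I} (hK : K 0 ≠ Set.univ) :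
    ∃ s, (PP e S fun j => {i}ᶜ ∩ K j).relIndex (PP e S K) + 1 = 2 ^ s := by
  obtain ⟨D, Q, hVD, hDP, hDp, hDn, hQp, hQn, hDQ', hQH, hQD⟩ := q.dq K (VV_ne_bot e (i := 0) hK)
  obtain ⟨W, -, hWD, v⟩ := exists_vecB Nat.prime_two hDn hQp hQn hDQ' hQH hQD
  have h1 := q.card_vec hY hK hVD hDP hDn v hWD
  have := Fact.mk Nat.prime_two
  obtain ⟨s, hs⟩ := IsPGroup.iff_card.1 v.isPGroup
  exact ⟨s, by rw [add_comm, ← h1, hs]⟩

omit [Finite G] [Finite Y] [IsSimpleGroup Y] hY q in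
theorem _root_.Cfsg.Agent.H737.EPO.PP_map (K : Set I) : PP e S (fun _ => K) = (S.P K).map (sg e 0) := by
  apply le_antisymm
  · apply pk_le_of_sg
    intro j t ht
    have : j = 0 := Subsingleton.elim _ _
    rw [this]
    exact ⟨t, ht, rfl⟩
  · rintro _ ⟨t, ht, rfl⟩
    exact (sg_mem_pk e).2 ht

omit [Finite G] [Finite Y] [IsSimpleGroup Y] hY q in
theorem _root_.Cfsg.Agent.H737.EPO.sg_inj : Function.Injective (sg e 0) := by
  intro a b hab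
  rw [← cp_sg e 0 a, hab, cp_sg]

omit [Finite G] [Finite Y] [IsSimpleGroup Y] hY q in
theorem _root_.Cfsg.Agent.H737.EPO.PP_relIndex (J K : Set I) :
    (PP e S fun _ => J).relIndex (PP e S fun _ => K) = (S.P J).relIndex (S.P K) := by
  rw [PP_map, PP_map, Subgroup.relIndex_map_map_of_injective _ _ (sg_inj (e := e))]

/-- **(C)** in terms of `Y`: for every `K ≠ I`, `|P_K : P_{K - i}| + 1` is a power of 2 -/
theorem res_pow' {K : Set I} (hK : K ≠ Set.univ) : ∃ s, (S.P (K \ {i})).relIndex (S.P K) + 1 = 2 ^ s := by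
  obtain ⟨s, hs⟩ := q.res_pow hY (K := fun _ => K) hK
  refine ⟨s, ?_⟩
  rw [← hs, ← PP_relIndex (e := e)]
  congr 3
  funext _
  rw [Set.diff_eq, Set.inter_comm]

end Q2

end Cfsg.Agent.H737.EPO
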